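import Mathlib
import Cfsg.Agent.Lib.Coprime.CopDeg
import Cfsg.Agent.Lib.Char.Galois
import Cfsg.Agent.Lib.Char.Brauer
import Cfsg.Agent.Lib.Char.DetExt
import Cfsg.Agent.Lib.Coprime.GlauberCore
import Cfsg.Agent.Lib.Char.Integral
import Cfsg.Agent.Lib.Char.QuasiPrim
import Cfsg.Agent.S0867

/-!
# The Glauberman correspondence for cyclic groups: canonical extensions
-/

set_option autoImplicit false
set_option linter.style.haveILetI false
set_option linter.unusedSectionVars false
set_option linter.unusedSimpArgs false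
set_option linter.unnecessarySimpa false

open scoped ComplexConjugate Pointwise
open Cfsg Cfsg.Agent.Lib.Char

namespace Cfsg.Agent.Lib.Coprime

universe u

section Twist

variable {G : Type u} [Group G]

theorem extendByZero_pow_twist [Finite G] (E : Subgroup G) (φ : E → ℂ) (u : ℕ) (hu : u.Coprime (Nat.card G)) (y : G) :
    extendByZero E φ (y ^ u) = extendByZero E (fun e => φ (e ^ u)) y := by
  by_cases hy : y ∈ E
  · rw [extendByZero_of_mem E _ hy, extendByZero_of_mem E _ (E.pow_mem hy u)]
    rfl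
  · have hy' : y ^ u ∉ E := by
      intro h
      have h1 : u.Coprime (orderOf y) := Nat.Coprime.coprime_dvd_right (orderOf_dvd_natCard y) hu
      obtain ⟨m, hm⟩ := exists_pow_eq_self_of_coprime h1
      apply hy
      rw [← hm]
      exact E.pow_mem h m
    rw [extendByZero_of_not_mem E _ hy, extendByZero_of_not_mem E _ hy']

theorem indFun_pow_twist [Fintype G] (E : Subgroup G) (φ : E → ℂ) (u : ℕ) (hu : u.Coprime (Nat.card G)) (g : G) :
    indFun E φ (g ^ u) = indFun E (fun e => φ (e ^ u)) g := by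
  simp only [indFun_apply]
  congr 1
  refine Finset.sum_congr rfl fun x _ => ?_
  rw [← extendByZero_pow_twist E φ u hu]
  congr 1
  have h1 : (x⁻¹ * g * x) ^ u = x⁻¹ * g ^ u * x := by
    have h2 := conj_pow (a := x⁻¹) (b := g) (i := u)
    simpa using h2
  rw [h1]

/-- The twist of a character by a coprime power map is a generalized character. -/
theorem pow_twist_generalized [Fintype G] (u : ℕ) (hu : u.Coprime (Nat.card G)) {χ : G → ℂ} (hχ : IsCharacter G χ) :
    IsGeneralizedCharacter G (fun g => χ (g ^ u)) := by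
  classical
  refine IndSpan.induction (P := fun f => IsGeneralizedCharacter G (fun g => f (g ^ u))) ?_ ?_ ?_
    (character_indSpan_linear hχ)
  · exact IsGeneralizedCharacter.zero
  · intro f g hf hg
    exact IsGeneralizedCharacter.add hf hg
  · rintro E φ c ⟨-, lam, rfl⟩
    letI : Fintype E := Fintype.ofFinite _
    have h1 : (fun g : G => ((c : ℂ) • indFun E (fun e => ((lam e : ℂˣ) : ℂ))) (g ^ u)) =
        (c : ℂ) • indFun E (fun e => (((powMonoidHom u : ℂˣ →* ℂˣ).comp lam e : ℂˣ) : ℂ)) := by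
      funext g
      simp only [Pi.smul_apply, smul_eq_mul]
      rw [indFun_pow_twist E _ u hu]
      congr 2
      funext e
      simp
    rw [h1]
    refine IsGeneralizedCharacter.intCast_smul ?_ c
    exact IsGeneralizedCharacter.of_isCharacter (indFun_isCharacter E
      (IsIrrCharacter.isCharacter (isIrrCharacter_of_hom _)))

/-- The twist of an irreducible character by a coprime power map is irreducible. -/
theorem pow_twist_irr [Fintype G] (u : ℕ) (hu : u.Coprime (Nat.card G)) {χ : G → ℂ} (hχ : IsIrrCharacter G χ) :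
    IsIrrCharacter G (fun g => χ (g ^ u)) := by
  classical
  have hbij : Function.Bijective (fun g : G => g ^ u) := (powCoprime hu.symm).bijective
  refine isIrr_of_generalized_norm_one (pow_twist_generalized u hu (IsIrrCharacter.isCharacter hχ)) ?_ ?_
  · rw [classInner_def]
    have h1 := classInner_irr_self hχ
    rw [classInner_def] at h1
    rw [← h1]
    congr 1
    exact hbij.sum_comp (fun g => χ g * conj (χ g))
  · simp only [one_pow]
    rw [map_one_eq_charDegree (IsIrrCharacter.isCharacter hχ)]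
    have := charDegree_pos_of_irr hχ
    simpa using this

/-- The determinantal character of a twist. -/
theorem detChar_twist [Finite G] {X Y : G → ℂ} (hX : IsCharacter G X) (hY : IsCharacter G Y) (u : ℕ)
    (h : ∀ g, Y g = X (g ^ u)) (g : G) : detChar Y g = (detChar X g) ^ u := by
  classical
  obtain ⟨n, ρ, rfl⟩ := hX
  obtain ⟨m, σ, rfl⟩ := hY
  let D : Subgroup G := Subgroup.zpowers g
  have hcomm : ∀ a b : D, a * b = b * a := by
    rintro ⟨_, i, rfl⟩ ⟨_, k, rfl⟩
    apply Subtype.ext
    show g ^ i * g ^ k = g ^ k * g ^ i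
    rw [← zpow_add, ← zpow_add, add_comm]
  let pw : D →* D :=
    { toFun := fun a => a ^ u
      map_one' := one_pow u
      map_mul' := fun a b => (show Commute a b from hcomm a b).mul_pow u }
  let ρ' : Representation ℂ D (Fin n → ℂ) := ρ.comp (D.subtype.comp pw)
  let σ' : Representation ℂ D (Fin m → ℂ) := σ.comp D.subtype
  have hchar : σ'.character = ρ'.character := by
    funext a
    exact h a
  let g' : D := ⟨g, Subgroup.mem_zpowers g⟩
  have h1 := detChar_character σ' g'
  have h2 := detChar_character ρ' g'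
  rw [hchar, h2] at h1
  rw [detChar_character, detChar_character]
  have h3 : ρ' g' = ρ (g ^ u) := rfl
  have h4 : σ' g' = σ g := rfl
  rw [h3, h4, map_pow, map_pow] at h1
  exact h1.symm

theorem detOrder_twist_dvd [Finite G] {X Y : G → ℂ} (hX : IsCharacter G X) (hY : IsCharacter G Y) (u : ℕ)
    (h : ∀ g, Y g = X (g ^ u)) : detOrder Y ∣ detOrder X := by
  apply orderOf_dvd_of_pow_eq_one
  funext g
  simp only [Pi.pow_apply, Pi.one_apply]
  rw [detChar_twist hX hY u h, ← pow_mul, mul_comm, pow_mul]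
  have h1 : (detChar X g) ^ detOrder X = 1 := congrFun (pow_orderOf_eq_one (detChar X)) g
  rw [h1, one_pow]

end Twist

section Int

/-- Squares of integers with sum one. -/
theorem exists_unique_of_sum_sq {ι : Type*} [Fintype ι] (n : ι → ℤ) (h : ∑ i, n i ^ 2 = 1) :
    ∃ i₀, (n i₀ = 1 ∨ n i₀ = -1) ∧ ∀ i, i ≠ i₀ → n i = 0 := by
  classical
  have hex : ∃ i₀, n i₀ ≠ 0 := by
    by_contra hcon
    push Not at hcon
    rw [Finset.sum_eq_zero (fun i _ => by rw [hcon i]; rfl)] at h
    exact zero_ne_one h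
  obtain ⟨i₀, hi₀⟩ := hex
  have hnn : ∀ i ∈ Finset.univ, 0 ≤ n i ^ 2 := fun i _ => sq_nonneg _
  have h1 : 1 ≤ n i₀ ^ 2 := by
    have := sq_pos_of_ne_zero hi₀
    omega
  have h2 : n i₀ ^ 2 ≤ 1 := by
    rw [← h]
    exact Finset.single_le_sum hnn (Finset.mem_univ i₀)
  have h3 : n i₀ ^ 2 = 1 := le_antisymm h2 h1
  refine ⟨i₀, ?_, fun i hi => ?_⟩
  · have h7 : (n i₀ - 1) * (n i₀ + 1) = 0 := by nlinarith
    rcases mul_eq_zero.mp h7 with h8 | h8
    · left; omega
    · right; omega
  · by_contra h4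
    have h5 : 1 ≤ n i ^ 2 := by
      have := sq_pos_of_ne_zero h4
      omega
    have h6 : n i ^ 2 + n i₀ ^ 2 ≤ ∑ i, n i ^ 2 := by
      have h9 := Finset.sum_pair (f := fun j => n j ^ 2) hi
      rw [← h9]
      exact Finset.sum_le_univ_sum_of_nonneg (fun i => sq_nonneg _)
    rw [h] at h6
    omega

end Int

section Core

variable {Γ Y C : Type u} [Group Γ] [Group Y] [Group C] [Finite Γ] [Fintype Y] [Fintype C] {i : Y →* Γ} {j : C →* Y} {s : Γ}

/-- **The value of an extension on the coset** when the values are stable under powers. -/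
theorem core_value_gen (D : CoreData i j s) {X : Γ → ℂ} (hX : IsCharacter Γ X)
    (hn : classInner (fun y => X (i y)) (fun y => X (i y)) = 1)
    (hpow : ∀ u : ℕ, u.Coprime (orderOf s) → ∀ c, X (i (j c) * s ^ u) = X (i (j c) * s)) :
    ∃ (β₀ : IrrCharacter C) (ε : ℤ), (ε = 1 ∨ ε = -1) ∧ ∀ c : C, X (i (j c) * s) = (ε : ℂ) * (β₀ : C → ℂ) c := by
  classical
  let A : Subgroup Γ := Subgroup.zpowers s
  let a₀ : A := ⟨s, Subgroup.mem_zpowers s⟩
  have hcomms : ∀ c : C, Commute (i (j c)) s := fun c => (D.range_j (j c)).mp ⟨c, rfl⟩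
  have hcomm : ∀ (c : C) (a : A), Commute ((i.comp j) c) (A.subtype a) := by
    rintro c ⟨_, m, rfl⟩
    exact (hcomms c).zpow_right m
  let hom : C × A →* Γ := MonoidHom.noncommCoprod (i.comp j) A.subtype hcomm
  have hΘ : IsCharacter (C × A) (X ∘ hom) := IsCharacter.comp hom hX
  have hF : ∀ β : IrrCharacter C, IsCharacter A
      (fun a : A => classInner (fun c => X (i (j c) * a)) (β : C → ℂ)) := fun β =>
    partial_inner_isCharacter hΘ β.2
  haveI : NeZero (orderOf s) := ⟨(orderOf_pos s).ne'⟩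
  have hint : ∀ β : IrrCharacter C, ∃ n : ℤ, classInner (fun c => X (i (j c) * s)) (β : C → ℂ) = (n : ℂ) := by
    intro β
    obtain ⟨m, ρ, hρ⟩ := hF β
    have hval : ∀ a : A, ρ.character a = classInner (fun c => X (i (j c) * a)) (β : C → ℂ) := fun a => congrFun hρ a
    have h1 : a₀ ^ orderOf s = 1 := Subtype.ext (pow_orderOf_eq_one s)
    obtain ⟨q, hq⟩ := char_rational_of_forall_pow ρ (orderOf s) a₀ h1 (fun u hu => by
      rw [hval, hval]
      have h2 : (fun c => X (i (j c) * ((a₀ ^ u : A) : Γ))) = fun c => X (i (j c) * s) := by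
        funext c
        exact hpow u hu c
      rw [h2])
    have h3 := isIntegral_character ρ a₀ (isOfFinOrder_of_finite a₀)
    rw [hq, isIntegral_ratCast_iff] at h3
    obtain ⟨n, hn'⟩ := h3
    refine ⟨n, ?_⟩
    have h4 := hval a₀
    rw [hq, hn'] at h4
    simpa using h4.symm
  choose n hn' using hint
  have hclass : IsClassFunction C (fun c => X (i (j c) * s)) := by
    intro d c
    have h1 : i (j (c * d * c⁻¹)) * s = i (j c) * (i (j d) * s) * (i (j c))⁻¹ := by
      have h2 := hcomms c
      simp only [map_mul, map_inv]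
      calc i (j c) * i (j d) * (i (j c))⁻¹ * s
          = i (j c) * i (j d) * ((i (j c))⁻¹ * s) := by group
        _ = i (j c) * i (j d) * (s * (i (j c))⁻¹) := by
            congr 1
            have h3 : Commute (i (j c))⁻¹ s := h2.inv_left
            exact h3
        _ = _ := by group
    simp only
    rw [h1, IsCharacter.isClassFunction hX]
  have hpars : ∑ β : IrrCharacter C, n β ^ 2 = 1 := by
    have h1 := classInner_eq_sum _ _ hclass hclass
    rw [classInner_def, core_sum_self D hX hn] at h1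
    have hC : (Nat.card C : ℂ) ≠ 0 := by exact_mod_cast Nat.card_pos.ne'
    rw [inv_mul_cancel₀ hC] at h1
    simp only [hn'] at h1
    have h2 : ((∑ β : IrrCharacter C, n β ^ 2 : ℤ) : ℂ) = 1 := by
      rw [h1]
      push_cast
      refine Finset.sum_congr rfl fun β _ => ?_
      simp [sq]
    exact_mod_cast h2
  obtain ⟨β₀, hε, hothers⟩ := exists_unique_of_sum_sq n hpars
  refine ⟨β₀, n β₀, hε, fun c => ?_⟩
  have h1 := congrFun (classFunction_eq_sum _ hclass) c
  simp only [hn', Finset.sum_apply, Pi.smul_apply, smul_eq_mul] at h1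
  rw [h1, Finset.sum_eq_single β₀]
  · intro β _ hne
    rw [hothers β hne]
    simp
  · simp

/-- A value on the coset proportional to an irreducible character forces a constituent. -/
theorem core_constituent (D : CoreData i j s) {X : Γ → ℂ} (hX : IsCharacter Γ X) (β : IrrCharacter C)
    (ε : ℂ) (hε : ε ≠ 0) (h : ∀ c : C, X (i (j c) * s) = ε * (β : C → ℂ) c) :
    classInner (fun c => X (i (j c))) (β : C → ℂ) ≠ 0 := by
  classical
  intro h0
  let A : Subgroup Γ := Subgroup.zpowers s
  let a₀ : A := ⟨s, Subgroup.mem_zpowers s⟩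
  have hcomms : ∀ c : C, Commute (i (j c)) s := fun c => (D.range_j (j c)).mp ⟨c, rfl⟩
  have hcomm : ∀ (c : C) (a : A), Commute ((i.comp j) c) (A.subtype a) := by
    rintro c ⟨_, m, rfl⟩
    exact (hcomms c).zpow_right m
  let hom : C × A →* Γ := MonoidHom.noncommCoprod (i.comp j) A.subtype hcomm
  have hΘ : IsCharacter (C × A) (X ∘ hom) := IsCharacter.comp hom hX
  haveI : Fintype A := Fintype.ofFinite A
  have hF : IsCharacter A (fun a : A => classInner (fun c => X (i (j c) * a)) (β : C → ℂ)) :=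
    partial_inner_isCharacter hΘ β.2
  have h1 : (fun a : A => classInner (fun c => X (i (j c) * a)) (β : C → ℂ)) = 0 := by
    apply IsCharacter.eq_zero_of_one hF
    simpa using h0
  have h2 := congrFun h1 a₀
  simp only [Pi.zero_apply] at h2
  have h3 : (fun c => X (i (j c) * (a₀ : Γ))) = ε • (β : C → ℂ) := by
    funext c
    simpa using h c
  rw [h3, classInner_smul_left, classInner_irr_self β.2, mul_one] at h2
  exact hε h2

end Core

section Canon

variable {Γ : Type u} [Group Γ] [Fintype Γ] (G S : Subgroup Γ)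

theorem normal_of_sup (hnorm : ∀ s ∈ S, ∀ g ∈ G, s * g * s⁻¹ ∈ G) (htop : G ⊔ S = ⊤) : G.Normal := by
  rw [← Subgroup.normalizer_eq_top_iff, eq_top_iff, ← htop]
  refine sup_le Subgroup.le_normalizer ?_
  intro s hs
  rw [Subgroup.mem_normalizer_iff]
  intro g
  refine ⟨hnorm s hs g, fun h => ?_⟩
  have := hnorm s⁻¹ (S.inv_mem hs) _ h
  simpa [mul_assoc] using this

variable {G S}

/-- Coprimality to the index and to the degree data. -/
theorem index_coprime_data [G.Normal] (hcop : (Nat.card G).Coprime (Nat.card S)) (htop : G ⊔ S = ⊤)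
    {ϑ : G → ℂ} (hϑ : IsIrrCharacter G ϑ) {d : ℕ} (hd : ϑ 1 = d) :
    Nat.Coprime G.index (detOrder ϑ * d) := by
  have h1 : G.index ∣ Nat.card S := index_dvd_card_of_sup G S htop
  have h2 : detOrder ϑ ∣ Nat.card G := detOrder_dvd_card (IsIrrCharacter.isCharacter hϑ)
  obtain ⟨d', h3, -, h4⟩ := IsIrrCharacter_degree_dvd hϑ
  have h5 : d = d' := by
    have : (d : ℂ) = d' := by rw [← hd, h3]
    exact_mod_cast this
  subst h5
  have hc : Nat.Coprime G.index (Nat.card G) := Nat.Coprime.coprime_dvd_left h1 hcop.symm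
  exact Nat.Coprime.mul_right (Nat.Coprime.coprime_dvd_right h2 hc) (Nat.Coprime.coprime_dvd_right h4 hc)

/-- Uniqueness of the canonical extension. -/
theorem canonical_unique [G.Normal] (hcop : (Nat.card G).Coprime (Nat.card S)) (htop : G ⊔ S = ⊤)
    {X Y : Γ → ℂ} (hX : IsIrrCharacter Γ X) (hY : IsIrrCharacter Γ Y) (hG : IsIrrCharacter G (fun g : G => X g))
    (hXY : ∀ g : G, Y g = X g) (hdetX : (detOrder X).Coprime (Nat.card S))
    (hdetY : (detOrder Y).Coprime (Nat.card S)) : Y = X := by
  have h1 : G.index ∣ Nat.card S := index_dvd_card_of_sup G S htop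
  obtain ⟨d, hd, -, -⟩ := IsIrrCharacter_degree_dvd hG
  have hinv : ∀ (g : Γ) (n : G), (fun g : G => X g) ⟨g * n * g⁻¹, (inferInstance : G.Normal).conj_mem (n : Γ) n.2 g⟩ = (fun g : G => X g) n := by
    intro g n
    exact IsCharacter.isClassFunction (IsIrrCharacter.isCharacter hX) _ _
  obtain ⟨χ₀, -, huniq⟩ := Cfsg.Agent.S0867.result G (fun g : G => X g) hG hinv d hd
    (index_coprime_data hcop htop hG hd)
  rw [huniq X hX (fun _ => rfl) (Nat.Coprime.coprime_dvd_left h1 hdetX.symm),
    huniq Y hY hXY (Nat.Coprime.coprime_dvd_left h1 hdetY.symm)]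

/-- The canonical extension is fixed by power maps that fix the normal subgroup pointwise. -/
theorem canonical_twist_fixed [G.Normal] (hcop : (Nat.card G).Coprime (Nat.card S)) (htop : G ⊔ S = ⊤)
    {X : Γ → ℂ} (hX : IsIrrCharacter Γ X) (hG : IsIrrCharacter G (fun g : G => X g))
    (hdet : (detOrder X).Coprime (Nat.card S)) (u : ℕ) (hu : u.Coprime (Nat.card Γ))
    (hfix : ∀ g : G, ((g : Γ)) ^ u = g) (y : Γ) : X (y ^ u) = X y := by
  have hY := pow_twist_irr u hu hX
  have h1 : (fun g => X (g ^ u)) = X := by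
    refine canonical_unique hcop htop hX hY hG (fun g => by simp only [hfix]) hdet ?_
    exact Nat.Coprime.coprime_dvd_left (detOrder_twist_dvd (IsIrrCharacter.isCharacter hX)
      (IsIrrCharacter.isCharacter hY) u (fun _ => rfl)) hdet
  exact congrFun h1 y

theorem card_dvd_mul_of_sup [G.Normal] (htop : G ⊔ S = ⊤) : Nat.card Γ ∣ Nat.card G * Nat.card S := by
  rw [← G.card_mul_index]
  exact Nat.mul_dvd_mul_left _ (index_dvd_card_of_sup G S htop)

/-- Invariance under coprime powers of the element of the complement. -/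
theorem canonical_pow [G.Normal] (hcop : (Nat.card G).Coprime (Nat.card S)) (htop : G ⊔ S = ⊤)
    {X : Γ → ℂ} (hX : IsIrrCharacter Γ X) (hG : IsIrrCharacter G (fun g : G => X g))
    (hdet : (detOrder X).Coprime (Nat.card S)) {c a : Γ} (hc : c ∈ G) (ha : a ∈ S) (hca : Commute c a)
    (u : ℕ) (hu : u.Coprime (Nat.card S)) : X (c * a ^ u) = X (c * a) := by
  obtain ⟨k, hk1, hk2⟩ := Nat.chineseRemainder hcop 1 u
  have hk1' : k.Coprime (Nat.card G) := by
    have := hk1.gcd_eq
    simpa [Nat.Coprime] using this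
  have hk2' : k.Coprime (Nat.card S) := by
    have := hk2.gcd_eq
    rw [Nat.Coprime] at hu ⊢
    rw [this, hu]
  have hk3 : k.Coprime (Nat.card Γ) :=
    Nat.Coprime.coprime_dvd_right (card_dvd_mul_of_sup htop) (Nat.Coprime.mul_right hk1' hk2')
  have hg : ∀ g : G, ((g : Γ)) ^ k = g := by
    intro g
    have h1 : orderOf (g : Γ) ∣ Nat.card G := Subgroup.orderOf_dvd_natCard G g.2
    have h2 : k ≡ 1 [MOD orderOf (g : Γ)] := hk1.of_dvd h1
    have h3 := (pow_eq_pow_iff_modEq (x := (g : Γ))).mpr h2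
    simpa using h3
  have h1 : orderOf a ∣ Nat.card S := Subgroup.orderOf_dvd_natCard S ha
  have h2 : a ^ k = a ^ u := (pow_eq_pow_iff_modEq (x := a)).mpr (hk2.of_dvd h1)
  have h3 := canonical_twist_fixed hcop htop hX hG hdet k hk3 hg (c * a)
  rw [hca.mul_pow, hg ⟨c, hc⟩, h2] at h3
  exact h3

/-- The core data of a generator. -/
theorem coreData_cyclic [G.Normal] [Fintype G] (hcop : (Nat.card G).Coprime (Nat.card S)) {C : Subgroup Γ}
    (hC : C = G ⊓ Subgroup.centralizer (S : Set Γ)) (hCG : C ≤ G) {s : Γ} (hs : Subgroup.zpowers s = S) :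
    CoreData G.subtype (Subgroup.inclusion hCG) s := by
  refine ⟨G.subtype_injective, Subgroup.inclusion_injective hCG, ?_, ?_, ?_⟩
  · rw [Subgroup.range_subtype]
    infer_instance
  · intro y
    constructor
    · rintro ⟨c, rfl⟩
      have h1 : (c : Γ) ∈ G ⊓ Subgroup.centralizer (S : Set Γ) := hC ▸ c.2
      have hs' : s ∈ S := by rw [← hs]; exact Subgroup.mem_zpowers s
      have h2 := Subgroup.mem_centralizer_iff.mp h1.2 s hs'
      exact h2.symm
    · intro h
      have hy : (y : Γ) ∈ C := by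
        rw [hC]
        refine ⟨y.2, Subgroup.mem_centralizer_iff.mpr ?_⟩
        intro a ha
        rw [SetLike.mem_coe, ← hs] at ha
        obtain ⟨m, rfl⟩ := ha
        have h3 : Commute (y : Γ) s := h
        exact ((h3.zpow_right m).eq).symm
      exact ⟨⟨y, hy⟩, rfl⟩
  · rw [← Nat.card_zpowers, hs]
    exact hcop.symm

/-- Existence of the value for a generator. -/
theorem canonical_value [G.Normal] [Fintype G] (hcop : (Nat.card G).Coprime (Nat.card S)) (htop : G ⊔ S = ⊤)
    {C : Subgroup Γ} [Fintype C]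
    (hC : C = G ⊓ Subgroup.centralizer (S : Set Γ)) (hCG : C ≤ G) {s : Γ} (hs : Subgroup.zpowers s = S)
    {X : Γ → ℂ} (hX : IsIrrCharacter Γ X) (hG : IsIrrCharacter G (fun g : G => X g))
    (hdet : (detOrder X).Coprime (Nat.card S)) :
    ∃ (β₀ : IrrCharacter C) (ε : ℤ), (ε = 1 ∨ ε = -1) ∧ ∀ c : C, X ((c : Γ) * s) = (ε : ℂ) * (β₀ : C → ℂ) c := by
  have D := coreData_cyclic hcop hC hCG hs
  have hs' : s ∈ S := by rw [← hs]; exact Subgroup.mem_zpowers s
  refine core_value_gen D (IsIrrCharacter.isCharacter hX) (classInner_irr_self hG) ?_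
  intro u hu c
  have hcomm : Commute ((c : Γ)) s := (D.range_j (Subgroup.inclusion hCG c)).mp ⟨c, rfl⟩
  have h1 : orderOf s = Nat.card S := by rw [← Nat.card_zpowers, hs]
  rw [h1] at hu
  exact canonical_pow hcop htop hX hG hdet (hCG c.2) hs' hcomm u hu

/-- Independence of the generator. -/
theorem canonical_value_eq [G.Normal] (hcop : (Nat.card G).Coprime (Nat.card S)) (htop : G ⊔ S = ⊤)
    {C : Subgroup Γ} (hC : C = G ⊓ Subgroup.centralizer (S : Set Γ)) (hCG : C ≤ G)
    {s s' : Γ} (hs : Subgroup.zpowers s = S) (hs' : Subgroup.zpowers s' = S)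
    {X : Γ → ℂ} (hX : IsIrrCharacter Γ X) (hG : IsIrrCharacter G (fun g : G => X g))
    (hdet : (detOrder X).Coprime (Nat.card S)) (c : C) :
    X ((c : Γ) * s') = X ((c : Γ) * s) := by
  have hsS : s ∈ S := by rw [← hs]; exact Subgroup.mem_zpowers s
  have hmem : s' ∈ Subgroup.zpowers s := by rw [hs, ← hs']; exact Subgroup.mem_zpowers s'
  rw [← mem_powers_iff_mem_zpowers] at hmem
  obtain ⟨k, rfl⟩ := hmem
  have h1 : orderOf s = Nat.card S := by rw [← Nat.card_zpowers, hs]
  have h2 : orderOf (s ^ k) = Nat.card S := by rw [← Nat.card_zpowers, hs']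
  have hk : k.Coprime (Nat.card S) := by
    rw [Nat.coprime_comm, ← h1]
    rcases Nat.eq_zero_or_pos k with rfl | hk
    · have : orderOf s = 1 := by rw [h1, ← h2]; simp
      rw [this]
      exact Nat.coprime_one_left _
    · have h3 := orderOf_pow' s hk.ne'
      rw [h2, ← h1] at h3
      have h4 : orderOf s ≠ 0 := (orderOf_pos s).ne'
      have h5 := Nat.gcd_dvd_left (orderOf s) k
      have h6 : 0 < (orderOf s).gcd k := Nat.gcd_pos_of_pos_right _ hk
      have h7 : (orderOf s) / (orderOf s).gcd k * (orderOf s).gcd k = orderOf s := Nat.div_mul_cancel h5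
      rw [← h3] at h7
      have h8 : (orderOf s).gcd k = 1 := by
        have h9 : orderOf s * (orderOf s).gcd k = orderOf s * 1 := by rw [h7, mul_one]
        exact Nat.eq_of_mul_eq_mul_left (Nat.pos_of_ne_zero h4) h9
      exact h8
  have hcomm : Commute (c : Γ) s := by
    have h3 : (c : Γ) ∈ G ⊓ Subgroup.centralizer (S : Set Γ) := hC ▸ c.2
    exact (Subgroup.mem_centralizer_iff.mp h3.2 s hsS).symm
  exact canonical_pow hcop htop hX hG hdet (hCG c.2) hsS hcomm k hk

end Canon

end Cfsg.Agent.Lib.Coprime
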