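import Mathlib
import Cfsg.Agent.Lib.Coprime.GlauberCore

/-!
# Summing a class function over a coset: control of fusion
-/

set_option autoImplicit false
set_option linter.style.haveILetI false
set_option linter.unusedSectionVars false
set_option linter.unusedSimpArgs false
set_option linter.unnecessarySimpa false

open scoped ComplexConjugate
open Cfsg Cfsg.Agent.Lib.Char

namespace Cfsg.Agent.Lib.Coprime

universe u v w

section Fusion

variable {Γ : Type u} [Group Γ] [Finite Γ] {F : Γ → ℂ}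

/-- Summing a class function over the coset `N s`, when the conjugators between the elements of `C s` lie in
`C`. -/
theorem sum_coset_fusion (N C : Subgroup Γ) [hN : N.Normal] [Fintype N] [Fintype C] (s : Γ)
    (hCN : C ≤ N) (hsC : ∀ c ∈ C, s * c * s⁻¹ ∈ C)
    (hfus : ∀ y ∈ N, ∀ c ∈ C, ∀ c' ∈ C, y * (c * s) * y⁻¹ = c' * s → y ∈ C)
    (hF : ∀ h g, F (h * g * h⁻¹) = F g) :
    (Nat.card C : ℂ) * ∑ g : N, F (g * s) = (Nat.card N : ℂ) * ∑ c : C, F (c * s) := by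
  classical
  have hmem : ∀ p : N × C, (p.1 : Γ) * p.2 * s * (p.1 : Γ)⁻¹ * s⁻¹ ∈ N := by
    intro p
    have h1 : (p.1 : Γ) * p.2 * s * (p.1 : Γ)⁻¹ * s⁻¹ = (p.1 : Γ) * p.2 * (s * (p.1 : Γ)⁻¹ * s⁻¹) := by group
    rw [h1]
    exact N.mul_mem (N.mul_mem p.1.2 (hCN p.2.2)) (hN.conj_mem _ (N.inv_mem p.1.2) s)
  let Θ : N × C → N := fun p => ⟨_, hmem p⟩
  have hΘ : ∀ p : N × C, ((Θ p : N) : Γ) * s = (p.1 : Γ) * ((p.2 : Γ) * s) * (p.1 : Γ)⁻¹ := by
    intro p
    show (p.1 : Γ) * p.2 * s * (p.1 : Γ)⁻¹ * s⁻¹ * s = _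
    group
  have h1 : ∑ p : N × C, F (((Θ p : N) : Γ) * s) = (Nat.card N : ℂ) * ∑ c : C, F (c * s) := by
    rw [Fintype.sum_prod_type]
    simp only [hΘ, hF, Finset.sum_const, Finset.card_univ, nsmul_eq_mul, Nat.card_eq_fintype_card]
  have hfib : ∀ p₀ : N × C, (Finset.univ.filter fun p : N × C => Θ p = Θ p₀).card = Fintype.card C := by
    rintro ⟨⟨y₀, hy₀⟩, ⟨c₀, hc₀⟩⟩
    symm
    rw [← Finset.card_univ]
    refine Finset.card_bij (fun (w : C) _ => ((⟨y₀ * w, N.mul_mem hy₀ (hCN w.2)⟩ : N),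
      (⟨(w : Γ)⁻¹ * c₀ * (s * w * s⁻¹), C.mul_mem (C.mul_mem (C.inv_mem w.2) hc₀) (hsC _ w.2)⟩ : C))) ?_ ?_ ?_
    · intro w _
      rw [Finset.mem_filter]
      refine ⟨Finset.mem_univ _, ?_⟩
      apply Subtype.ext
      show (y₀ * w * ((w : Γ)⁻¹ * c₀ * (s * w * s⁻¹)) * s * (y₀ * w)⁻¹ * s⁻¹ : Γ) = y₀ * c₀ * s * y₀⁻¹ * s⁻¹
      group
    · intro w _ w' _ h
      have h1 := congrArg (fun p : N × C => ((p.1 : N) : Γ)) h
      simp only at h1
      exact Subtype.ext (mul_left_cancel h1)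
    · rintro ⟨⟨y, hy⟩, ⟨c, hc⟩⟩ hp
      rw [Finset.mem_filter] at hp
      have hp2 := congrArg Subtype.val hp.2
      have hp3 : y * c * s * y⁻¹ * s⁻¹ = y₀ * c₀ * s * y₀⁻¹ * s⁻¹ := hp2
      have hp4 : y * (c * s) * y⁻¹ = y₀ * (c₀ * s) * y₀⁻¹ := by
        have h5 := mul_right_cancel hp3
        rw [← mul_assoc, h5, mul_assoc y₀]
      have hw : (y₀⁻¹ * y) * (c * s) * (y₀⁻¹ * y)⁻¹ = c₀ * s := by
        calc (y₀⁻¹ * y) * (c * s) * (y₀⁻¹ * y)⁻¹ = y₀⁻¹ * (y * (c * s) * y⁻¹) * y₀ := by group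
          _ = y₀⁻¹ * (y₀ * (c₀ * s) * y₀⁻¹) * y₀ := by rw [hp4]
          _ = c₀ * s := by group
      have hwN : y₀⁻¹ * y ∈ N := N.mul_mem (N.inv_mem hy₀) hy
      have hwC : y₀⁻¹ * y ∈ C := hfus _ hwN c hc c₀ hc₀ hw
      refine ⟨⟨_, hwC⟩, Finset.mem_univ _, ?_⟩
      apply Prod.ext
      · apply Subtype.ext
        show y₀ * (y₀⁻¹ * y) = y
        group
      · apply Subtype.ext
        show (y₀⁻¹ * y)⁻¹ * c₀ * (s * (y₀⁻¹ * y) * s⁻¹) = c
        have h6 : c₀ = (y₀⁻¹ * y) * (c * s) * (y₀⁻¹ * y)⁻¹ * s⁻¹ := by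
          rw [hw]
          group
        rw [h6]
        group
  -- surjectivity by counting
  have hsurj : Function.Surjective Θ := by
    by_contra hns
    have h2 : (Finset.univ.image Θ) ≠ Finset.univ := by
      intro h3
      apply hns
      intro g
      have h4 : g ∈ Finset.univ.image Θ := by rw [h3]; exact Finset.mem_univ g
      obtain ⟨p, -, hp⟩ := Finset.mem_image.mp h4
      exact ⟨p, hp⟩
    have h3 : (Finset.univ.image Θ).card < Fintype.card N := by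
      rw [← Finset.card_univ]
      exact Finset.card_lt_card (Finset.ssubset_univ_iff.mpr h2)
    have h4 := Finset.card_eq_sum_card_image Θ (Finset.univ : Finset (N × C))
    have h5 : ∀ g ∈ Finset.univ.image Θ, (Finset.univ.filter fun p : N × C => Θ p = g).card = Fintype.card C := by
      intro g hg
      obtain ⟨p, -, rfl⟩ := Finset.mem_image.mp hg
      exact hfib p
    rw [Finset.sum_congr rfl h5, Finset.sum_const, Finset.card_univ, Fintype.card_prod, smul_eq_mul] at h4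
    have hC : 0 < Fintype.card C := Fintype.card_pos
    have h6 := Nat.eq_of_mul_eq_mul_right hC h4
    omega
  have h2 : ∑ p : N × C, F (((Θ p : N) : Γ) * s) = (Nat.card C : ℂ) * ∑ g : N, F (g * s) := by
    rw [← Finset.sum_fiberwise Finset.univ Θ, Finset.mul_sum]
    refine Finset.sum_congr rfl fun g _ => ?_
    have h3 : ∀ p ∈ Finset.univ.filter (fun p : N × C => Θ p = g),
        F (((Θ p : N) : Γ) * s) = F ((g : Γ) * s) := by
      intro p hp
      rw [(Finset.mem_filter.mp hp).2]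
    obtain ⟨p₀, rfl⟩ := hsurj g
    rw [Finset.sum_congr rfl h3, Finset.sum_const, hfib p₀, nsmul_eq_mul, Nat.card_eq_fintype_card]
  rw [← h1, h2]

/-- The average over `Y s` computed over `C s`, for injections `i`, `j`. -/
theorem fusion_inner_eq {Y : Type v} {C : Type w} [Group Y] [Group C] [Fintype Y] [Fintype C] {i : Y →* Γ}
    {j : C →* Y} {s : Γ} (hi : Function.Injective i) (hj : Function.Injective j) (hn : i.range.Normal)
    (hsC : ∀ c : C, ∃ c' : C, s * i (j c) * s⁻¹ = i (j c'))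
    (hfus : ∀ (y : Y) (c c' : C), i y * (i (j c) * s) * (i y)⁻¹ = i (j c') * s → y ∈ j.range)
    (hF : ∀ h g, F (h * g * h⁻¹) = F g) :
    (Nat.card C : ℂ)⁻¹ * ∑ c : C, F (i (j c) * s) = (Nat.card Y : ℂ)⁻¹ * ∑ y : Y, F (i y * s) := by
  classical
  haveI := hn
  letI : Fintype i.range := Fintype.ofFinite _
  let C₀ : Subgroup Γ := j.range.map i
  letI : Fintype C₀ := Fintype.ofFinite _
  have hcard : Nat.card i.range = Nat.card Y :=
    Nat.card_congr (MonoidHom.ofInjective hi).toEquiv.symm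
  let eC : C → C₀ := fun c => ⟨i (j c), ⟨j c, ⟨c, rfl⟩, rfl⟩⟩
  have heC : Function.Bijective eC := by
    constructor
    · intro a b hab
      have h1 : i (j a) = i (j b) := congrArg Subtype.val hab
      exact hj (hi h1)
    · rintro ⟨_, y, ⟨c, rfl⟩, rfl⟩
      exact ⟨c, rfl⟩
  have hcardC : Nat.card C₀ = Nat.card C := (Nat.card_eq_of_bijective eC heC).symm
  have h := sum_coset_fusion (F := F) i.range C₀ s (by
      rintro _ ⟨y, -, rfl⟩
      exact ⟨y, rfl⟩)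
    (by
      rintro _ ⟨_, ⟨c, rfl⟩, rfl⟩
      obtain ⟨c', hc'⟩ := hsC c
      exact ⟨j c', ⟨c', rfl⟩, hc'.symm⟩)
    (by
      rintro _ ⟨y, rfl⟩ _ ⟨_, ⟨c, rfl⟩, rfl⟩ _ ⟨_, ⟨c', rfl⟩, rfl⟩ h1
      exact ⟨y, hfus y c c' h1, rfl⟩) hF
  have h2 : ∑ c : C₀, F (c * s) = ∑ c : C, F (i (j c) * s) :=
    (heC.sum_comp (fun c : C₀ => F (c * s))).symm
  have h3 : ∑ g : i.range, F (g * s) = ∑ y : Y, F (i y * s) := by
    refine (Fintype.sum_equiv (MonoidHom.ofInjective hi).toEquiv _ _ fun y => ?_).symm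
    rfl
  rw [h2, h3, hcard, hcardC] at h
  have h4 : (Nat.card C : ℂ) ≠ 0 := by exact_mod_cast Nat.card_pos.ne'
  have h5 : (Nat.card Y : ℂ) ≠ 0 := by exact_mod_cast Nat.card_pos.ne'
  field_simp
  linear_combination -h

end Fusion

end Cfsg.Agent.Lib.Coprime
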