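import Mathlib
import Cfsg.Agent.Lib.Coprime.Kaz
import Cfsg.Agent.Lib.Coprime.SZ
import Cfsg.Agent.Lib.Hall.Basic

/-!
# Abelian `p`-complements from Kazarin's theorem
-/

set_option autoImplicit false

namespace Cfsg.Agent.Lib.Coprime

open Subgroup Cfsg
open scoped Pointwise

universe u

section Lift

variable {G : Type*} [Group G] [Finite G]

/-- A `p'`-element of a quotient lifts to a `p'`-element. -/
theorem exists_lift_coprime_orderOf {Q : Type*} [Group Q] [Finite Q] (f : G →* Q)
    (hf : Function.Surjective f) {p : ℕ} [hp : Fact p.Prime] {y : Q} (hy : (orderOf y).Coprime p) :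
    ∃ x : G, f x = y ∧ (orderOf x).Coprime p := by
  obtain ⟨g, rfl⟩ := hf y
  have hn : orderOf g ≠ 0 := (orderOf_pos g).ne'
  obtain ⟨a, m, hm, hnm⟩ := Nat.exists_eq_pow_mul_and_not_dvd hn p hp.out.ne_one
  by_cases h1 : orderOf (f g) = 1
  · refine ⟨1, ?_, by simp⟩
    rw [orderOf_eq_one_iff] at h1
    rw [h1, map_one]
  have hcop : (p ^ a).Coprime (orderOf (f g)) := Nat.Coprime.pow_left a hy.symm
  have h1' : 1 < orderOf (f g) := by
    have := orderOf_pos (f g)
    omega
  obtain ⟨c, -, hc⟩ := Nat.exists_mul_mod_eq_one_of_coprime hcop h1'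
  refine ⟨g ^ (p ^ a * c), ?_, ?_⟩
  · rw [map_pow, ← pow_mod_orderOf, hc, pow_one]
  · have hd : orderOf (g ^ (p ^ a * c)) ∣ m := by
      apply orderOf_dvd_of_pow_eq_one
      rw [← pow_mul]
      have : p ^ a * c * m = orderOf g * c := by rw [hnm]; ring
      rw [this, pow_mul, pow_orderOf_eq_one, one_pow]
    exact Nat.Coprime.coprime_dvd_left hd ((Nat.Prime.coprime_iff_not_dvd hp.out).mpr hm).symm

/-- Class sizes divide class sizes in surjective images. -/
theorem index_centralizer_map_dvd {Q : Type*} [Group Q] (f : G →* Q)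
    (hf : Function.Surjective f) (x : G) :
    (centralizer ({f x} : Set Q)).index ∣ (centralizer ({x} : Set G)).index := by
  have h1 : (centralizer ({x} : Set G)).map f ≤ centralizer ({f x} : Set Q) := by
    rintro _ ⟨c, hc, rfl⟩
    rw [SetLike.mem_coe, mem_centralizer_singleton_iff] at hc
    rw [mem_centralizer_singleton_iff, ← map_mul, hc, map_mul]
  exact (Subgroup.index_dvd_of_le h1).trans (Subgroup.index_map_dvd _ hf)

end Lift

section Main

variable {G : Type u} [Group G] [Finite G]

/-- With `O_p(G) = 1`, the normal closure of a `p'`-element with `p`-power class has order prime to `p`. -/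
theorem card_normalClosure_coprime {p : ℕ} [hp : Fact p.Prime] (hO : pCore p G = ⊥) (y : G)
    (hy : (orderOf y).Coprime p) {a : ℕ} (ha : (centralizer ({y} : Set G)).index = p ^ a) :
    (Nat.card (normalClosure ({y} : Set G))).Coprime p := by
  set N := normalClosure ({y} : Set G) with hN
  have hcomm : ∀ u ∈ N, ∀ v ∈ N, Commute u v := by
    intro u hu v hv
    have h := comm_mem_pCore_of_mem_normalClosure (p := p) y ha hu hv
    rw [hO, mem_bot] at h
    have h2 : u * v * u⁻¹ = v := by
      rwa [mul_inv_eq_one] at h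
    show u * v = v * u
    calc u * v = u * v * u⁻¹ * u := by group
      _ = v * u := by rw [h2]
  have hpow : ∀ u ∈ N, u ^ orderOf y = 1 := by
    intro u hu
    induction hu using Subgroup.closure_induction with
    | mem z hz =>
      rw [Group.mem_conjugatesOfSet_iff] at hz
      obtain ⟨t, ht, h⟩ := hz
      rw [Set.mem_singleton_iff.mp ht] at h
      obtain ⟨g, rfl⟩ := isConj_iff.mp h
      rw [conj_pow, pow_orderOf_eq_one]; group
    | one => simp
    | mul u v hu hv hu' hv' =>
      rw [(hcomm u hu v hv).mul_pow, hu', hv', one_mul]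
    | inv u hu hu' => rw [inv_pow, hu', inv_one]
  rw [Nat.coprime_comm, Nat.Prime.coprime_iff_not_dvd hp.out]
  intro hdvd
  obtain ⟨u, hu⟩ := exists_prime_orderOf_dvd_card' (G := N) p hdvd
  have h1 : orderOf (u : G) ∣ orderOf y := orderOf_dvd_of_pow_eq_one (hpow u u.2)
  rw [Subgroup.orderOf_coe, hu] at h1
  exact hp.out.one_lt.ne' (Nat.Coprime.eq_one_of_dvd hy.symm h1)

/-- With `O_p(G) = 1`, a `p'`-element `y` with `p`-power class and a `p'`-element `z` with `p`-power class
commute. -/
theorem commute_of_pCore_eq_bot {p : ℕ} [hp : Fact p.Prime] (hO : pCore p G = ⊥) {y z : G}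
    (hy : (orderOf y).Coprime p) {a b : ℕ} (ha : (centralizer ({y} : Set G)).index = p ^ a)
    (hb : (centralizer ({z} : Set G)).index = p ^ b) : Commute y z := by
  set N := normalClosure ({y} : Set G) with hN
  have hcop := card_normalClosure_coprime hO y hy ha
  have h1 : (centralizer ({z} : Set G)).relIndex N ∣ p ^ b := by
    rw [← hb]
    exact Cfsg.Agent.Lib.ClassSizes.relIndex_dvd_index_of_normal_right _ N
  have h2 : (centralizer ({z} : Set G)).relIndex N ∣ Nat.card N := Subgroup.relIndex_dvd_card _ _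
  have h3 : (centralizer ({z} : Set G)).relIndex N = 1 := by
    apply Nat.Coprime.eq_one_of_dvd
      (Nat.Coprime.coprime_dvd_left h2 (Nat.Coprime.pow_right b hcop)) h1
  have h4 : N ≤ centralizer ({z} : Set G) := Subgroup.relIndex_eq_one.mp h3
  have h5 : y ∈ N := subset_normalClosure (Set.mem_singleton y)
  have h6 := h4 h5
  rw [mem_centralizer_singleton_iff] at h6
  exact h6

/-- The subgroup of `p'`-elements when they commute pairwise. -/
def regSub {p : ℕ} (hc : ∀ y z : G, (orderOf y).Coprime p → (orderOf z).Coprime p → Commute y z) :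
    Subgroup G where
  carrier := {y | (orderOf y).Coprime p}
  mul_mem' := by
    intro y z hy hz
    exact Nat.Coprime.coprime_dvd_left ((hc y z hy hz).orderOf_mul_dvd_mul_orderOf)
      (Nat.Coprime.mul_left hy hz)
  one_mem' := by simp
  inv_mem' := by
    intro y hy
    simpa [orderOf_inv] using hy

theorem mem_regSub {p : ℕ}
    (hc : ∀ y z : G, (orderOf y).Coprime p → (orderOf z).Coprime p → Commute y z) {y : G} :
    y ∈ regSub hc ↔ (orderOf y).Coprime p := Iff.rfl

instance regSub_normal {p : ℕ}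
    (hc : ∀ y z : G, (orderOf y).Coprime p → (orderOf z).Coprime p → Commute y z) :
    (regSub hc).Normal := by
  constructor
  intro n hn g
  rw [mem_regSub] at hn ⊢
  have : orderOf (g * n * g⁻¹) = orderOf n := by
    have := MulEquiv.orderOf_eq (MulAut.conj g) n
    simpa [MulAut.conj_apply] using this
  rwa [this]

theorem card_regSub_coprime {p : ℕ} [hp : Fact p.Prime]
    (hc : ∀ y z : G, (orderOf y).Coprime p → (orderOf z).Coprime p → Commute y z) :
    (Nat.card (regSub hc)).Coprime p := by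
  rw [Nat.coprime_comm, Nat.Prime.coprime_iff_not_dvd hp.out]
  intro hdvd
  obtain ⟨u, hu⟩ := exists_prime_orderOf_dvd_card' (G := regSub hc) p hdvd
  have h1 : (orderOf (u : G)).Coprime p := u.2
  rw [Subgroup.orderOf_coe, hu] at h1
  exact hp.out.one_lt.ne' ((Nat.coprime_self p).mp h1)

theorem isPGroup_quotient_regSub {p : ℕ} [hp : Fact p.Prime]
    (hc : ∀ y z : G, (orderOf y).Coprime p → (orderOf z).Coprime p → Commute y z) :
    IsPGroup p (G ⧸ regSub hc) := by
  intro q
  obtain ⟨g, rfl⟩ := QuotientGroup.mk_surjective q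
  have hn : orderOf g ≠ 0 := (orderOf_pos g).ne'
  obtain ⟨a, m, hm, hnm⟩ := Nat.exists_eq_pow_mul_and_not_dvd hn p hp.out.ne_one
  refine ⟨a, ?_⟩
  rw [← QuotientGroup.mk_pow, QuotientGroup.eq_one_iff, mem_regSub]
  have hd : orderOf (g ^ p ^ a) ∣ m := by
    apply orderOf_dvd_of_pow_eq_one
    rw [← pow_mul, ← hnm, pow_orderOf_eq_one]
  exact Nat.Coprime.coprime_dvd_left hd ((Nat.Prime.coprime_iff_not_dvd hp.out).mpr hm).symm

/-- Forward direction of the abelian `p`-complement criterion. -/
theorem exists_abelian_complement {p : ℕ} [hp : Fact p.Prime]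
    (h : ∀ x : G, (orderOf x).Coprime p → ∃ k : ℕ, (centralizer ({x} : Set G)).index = p ^ k) :
    ∃ H : Subgroup G, IsMulCommutative H ∧ ¬ p ∣ Nat.card H ∧ ∃ k : ℕ, H.index = p ^ k := by
  set O := pCore p G with hOdef
  let Q := G ⧸ O
  have hQ : pCore p Q = ⊥ := Cfsg.Agent.Lib.Core.pCore_quotient_pCore_eq_bot (p := p) (G := G)
  have hmk := QuotientGroup.mk'_surjective O
  have hreg : ∀ y : Q, (orderOf y).Coprime p → ∃ k : ℕ, (centralizer ({y} : Set Q)).index = p ^ k := by
    intro y hy
    obtain ⟨x, rfl, hx⟩ := exists_lift_coprime_orderOf (QuotientGroup.mk' O) hmk hy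
    obtain ⟨k, hk⟩ := h x hx
    have hd := index_centralizer_map_dvd (QuotientGroup.mk' O) hmk x
    rw [hk] at hd
    obtain ⟨j, -, hj⟩ := (Nat.dvd_prime_pow hp.out).mp hd
    exact ⟨j, hj⟩
  have hc : ∀ y z : Q, (orderOf y).Coprime p → (orderOf z).Coprime p → Commute y z := by
    intro y z hy hz
    obtain ⟨a, ha⟩ := hreg y hy
    obtain ⟨b, hb⟩ := hreg z hz
    exact commute_of_pCore_eq_bot hQ hy ha hb
  set A := regSub hc with hA
  have hAcop := card_regSub_coprime hc
  have hAp := isPGroup_quotient_regSub hc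
  obtain ⟨j, hj⟩ := IsPGroup.iff_card.mp hAp
  have hOp : IsPGroup p O := Cfsg.Agent.Lib.Core.pCore_isPGroup p G
  obtain ⟨i, hi⟩ := IsPGroup.iff_card.mp hOp
  let B : Subgroup G := A.comap (QuotientGroup.mk' O)
  have hOB : O ≤ B := by
    intro o ho
    have : (QuotientGroup.mk' O) o = 1 := (QuotientGroup.eq_one_iff _).mpr ho
    show (QuotientGroup.mk' O) o ∈ A
    rw [this]
    exact A.one_mem
  have hBmap : B.map (QuotientGroup.mk' O) = A := Subgroup.map_comap_eq_self_of_surjective hmk A
  have hBcard : Nat.card B = Nat.card O * Nat.card A := by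
    have := card_eq_card_map_mk_mul hOB
    rwa [hBmap] at this
  let N₀ : Subgroup B := O.subgroupOf B
  have hN₀card : Nat.card N₀ = Nat.card O := card_subgroupOf_of_le hOB
  have hOApos : 0 < Nat.card O := Nat.card_pos
  have hN₀idx : N₀.index = Nat.card A := by
    have h1 := N₀.card_mul_index
    rw [hN₀card, hBcard] at h1
    exact Nat.eq_of_mul_eq_mul_left hOApos h1
  have hcop0 : (Nat.card O).Coprime (Nat.card A) := by
    rw [hi]; exact Nat.Coprime.pow_left i hAcop.symm
  obtain ⟨H₀, hH₀⟩ := Subgroup.exists_right_complement'_of_coprime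
    (N := N₀) (by rw [hN₀card, hN₀idx]; exact hcop0)
  let H : Subgroup G := H₀.map B.subtype
  have hHcard0 : Nat.card H₀ = Nat.card A := by
    have h1 := hH₀.card_mul
    rw [hN₀card, hBcard] at h1
    exact Nat.eq_of_mul_eq_mul_left hOApos h1
  have hHcard : Nat.card H = Nat.card A := by
    rw [← hHcard0]
    exact Nat.card_congr (Subgroup.equivMapOfInjective H₀ B.subtype B.subtype_injective).symm.toEquiv
  have hHB : H ≤ B := by
    rintro _ ⟨u, -, rfl⟩
    exact u.2
  have hcopOH : (Nat.card O).Coprime (Nat.card H) := by rw [hHcard]; exact hcop0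
  have hOH : O ⊓ H = ⊥ := Subgroup.inf_eq_bot_of_coprime hcopOH
  refine ⟨H, ?_, ?_, ?_⟩
  · refine ⟨⟨?_⟩⟩
    intro u v
    apply Subtype.ext
    have hu : (QuotientGroup.mk' O) (u : G) ∈ A := hHB u.2
    have hv : (QuotientGroup.mk' O) (v : G) ∈ A := hHB v.2
    have huv : Commute ((QuotientGroup.mk' O) (u : G)) ((QuotientGroup.mk' O) (v : G)) := hc _ _ hu hv
    have hkey : (u : G) * v * (u : G)⁻¹ * (v : G)⁻¹ ∈ O := by
      rw [← QuotientGroup.eq_one_iff]
      have h3 : (QuotientGroup.mk' O) (u : G) * (QuotientGroup.mk' O) (v : G) *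
          ((QuotientGroup.mk' O) (u : G))⁻¹ * ((QuotientGroup.mk' O) (v : G))⁻¹ = 1 := by
        rw [huv.eq]; group
      exact h3
    have hkey2 : (u : G) * v * (u : G)⁻¹ * (v : G)⁻¹ ∈ H :=
      H.mul_mem (H.mul_mem (H.mul_mem u.2 v.2) (H.inv_mem u.2)) (H.inv_mem v.2)
    have h5 : (u : G) * v * (u : G)⁻¹ * (v : G)⁻¹ ∈ O ⊓ H := ⟨hkey, hkey2⟩
    rw [hOH, mem_bot] at h5
    show (u : G) * v = v * u
    calc (u : G) * v = ((u : G) * v * (u : G)⁻¹ * (v : G)⁻¹) * (v * u) := by group
      _ = v * u := by rw [h5, one_mul]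
  · rw [hHcard]
    intro hd
    exact hp.out.one_lt.ne' (Nat.Coprime.eq_one_of_dvd hAcop.symm hd)
  · refine ⟨i + j, ?_⟩
    have h1 := H.card_mul_index
    have h2 := O.card_mul_index
    have h3 := A.card_mul_index
    have hindex : O.index = Nat.card Q := rfl
    have hAidx : A.index = p ^ j := hj
    have hApos : 0 < Nat.card A := Nat.card_pos
    have h4 : Nat.card G = Nat.card A * (p ^ i * p ^ j) := by
      rw [← h2, hi, hindex, ← h3, hAidx]; ring
    rw [hHcard, h4] at h1
    rw [pow_add]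
    exact Nat.eq_of_mul_eq_mul_left hApos h1

/-- A subgroup that is abelian modulo `O_p(G)` is solvable. -/
theorem isSolvable_of_comm_mod_pCore {p : ℕ} [hp : Fact p.Prime] (M : Subgroup G)
    (hM : ∀ u ∈ M, ∀ v ∈ M, u * v * u⁻¹ * v⁻¹ ∈ pCore p G) : Group.IsSolvable M := by
  set O := pCore p G
  let f : M →* G ⧸ O := (QuotientGroup.mk' O).comp M.subtype
  have hab : ∀ u v : f.range, u * v = v * u := by
    rintro ⟨_, ⟨u, rfl⟩⟩ ⟨_, ⟨v, rfl⟩⟩
    apply Subtype.ext
    have h := hM u u.2 v v.2
    have h2 := (QuotientGroup.eq_one_iff _).mpr h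
    simp only [QuotientGroup.mk_mul, QuotientGroup.mk_inv] at h2
    show ((u : G) : G ⧸ O) * ((v : G) : G ⧸ O) = ((v : G) : G ⧸ O) * ((u : G) : G ⧸ O)
    calc ((u : G) : G ⧸ O) * ((v : G) : G ⧸ O)
        = (((u : G) : G ⧸ O) * ((v : G) : G ⧸ O) * ((u : G) : G ⧸ O)⁻¹ * ((v : G) : G ⧸ O)⁻¹) *
            (((v : G) : G ⧸ O) * ((u : G) : G ⧸ O)) := by group
      _ = _ := by rw [h2, one_mul]
  haveI hs2 : Group.IsSolvable f.range := Group.isSolvable_of_comm hab
  have hpg : IsPGroup p f.ker := by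
    have hO : IsPGroup p O := Cfsg.Agent.Lib.Core.pCore_isPGroup p G
    intro ⟨u, hu⟩
    have hu2 : (u : G) ∈ O := (QuotientGroup.eq_one_iff _).mp hu
    obtain ⟨k, hk⟩ := hO ⟨(u : G), hu2⟩
    refine ⟨k, ?_⟩
    apply Subtype.ext
    apply Subtype.ext
    have := congrArg Subtype.val hk
    simpa using this
  haveI hs1 : Group.IsSolvable f.ker := by
    haveI := hpg.isNilpotent
    infer_instance
  exact Group.isSolvable_of_ker_le_range f.ker.subtype f.rangeRestrict (by
    intro u hu
    refine ⟨⟨u, ?_⟩, rfl⟩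
    have := (MonoidHom.mem_ker).mp hu
    rw [MonoidHom.mem_ker]
    exact congrArg Subtype.val this)

/-- Conjugate elements have centralizers of the same index. -/
theorem index_centralizer_eq_of_isConj {x y : G} (h : IsConj x y) :
    (centralizer ({x} : Set G)).index = (centralizer ({y} : Set G)).index := by
  rw [index_centralizer_eq_ncard, index_centralizer_eq_ncard, ConjClasses.mk_eq_mk_iff_isConj.mpr h]

/-- Backward direction of the abelian `p`-complement criterion. -/
theorem exists_index_eq_of_abelian_complement {p : ℕ} [hp : Fact p.Prime] (H : Subgroup G)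
    (hab : IsMulCommutative H) (hH : ¬ p ∣ Nat.card H) {k : ℕ} (hk : H.index = p ^ k) (x : G)
    (hx : (orderOf x).Coprime p) : ∃ j : ℕ, (centralizer ({x} : Set G)).index = p ^ j := by
  classical
  set O := pCore p G with hOdef
  let Q := G ⧸ O
  have hQ : pCore p Q = ⊥ := Cfsg.Agent.Lib.Core.pCore_quotient_pCore_eq_bot (p := p) (G := G)
  let f := QuotientGroup.mk' O
  have hf : Function.Surjective f := QuotientGroup.mk'_surjective O
  have hHcop : (Nat.card H).Coprime p :=
    ((Nat.Prime.coprime_iff_not_dvd hp.out).mpr hH).symm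
  have hOp : IsPGroup p O := Cfsg.Agent.Lib.Core.pCore_isPGroup p G
  obtain ⟨i, hi⟩ := IsPGroup.iff_card.mp hOp
  have hcopOH : (Nat.card O).Coprime (Nat.card H) := by
    rw [hi]; exact Nat.Coprime.pow_left i hHcop.symm
  have hOH : H ⊓ O = ⊥ := Subgroup.inf_eq_bot_of_coprime hcopOH.symm
  have hHpow : ∀ h ∈ H, ∃ j : ℕ, (centralizer ({h} : Set G)).index = p ^ j := by
    intro h hh
    have hle : H ≤ centralizer ({h} : Set G) := by
      intro u hu
      rw [mem_centralizer_singleton_iff]
      have := congrArg Subtype.val (hab.is_comm.comm ⟨u, hu⟩ ⟨h, hh⟩)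
      exact this
    have hd : (centralizer ({h} : Set G)).index ∣ p ^ k := hk ▸ Subgroup.index_dvd_of_le hle
    obtain ⟨j, -, hj⟩ := (Nat.dvd_prime_pow hp.out).mp hd
    exact ⟨j, hj⟩
  set W := pPrimeCore p Q with hW
  have hWcop : (Nat.card W).Coprime p := Cfsg.Agent.Lib.Core.pPrimeCore_coprime p Q
  have hHW : H.map f ≤ W := by
    rintro _ ⟨h, hh, rfl⟩
    obtain ⟨j, hj⟩ := hHpow h hh
    have hd := index_centralizer_map_dvd f hf h
    rw [hj] at hd
    obtain ⟨j', -, hj'⟩ := (Nat.dvd_prime_pow hp.out).mp hd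
    have hord : (orderOf (f h)).Coprime p := by
      have h1 : orderOf (f h) ∣ orderOf h := orderOf_map_dvd f h
      have h2 : orderOf h ∣ Nat.card H := Subgroup.orderOf_dvd_natCard H hh
      exact Nat.Coprime.coprime_dvd_left (h1.trans h2) hHcop
    have hcop := card_normalClosure_coprime hQ (f h) hord hj'
    have hnorm : (normalClosure ({f h} : Set Q)).Normal := inferInstance
    have hle : normalClosure ({f h} : Set Q) ≤ W := Cfsg.Agent.Lib.Core.le_pPrimeCore hnorm hcop
    exact hle (subset_normalClosure (Set.mem_singleton _))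
  have hHmapcard : Nat.card (H.map f) = Nat.card H := card_map_mk_of_inf_eq_bot hOH
  have hGcard : Nat.card G = Nat.card H * p ^ k := by rw [← H.card_mul_index, hk]
  have hGcard2 : Nat.card G = Nat.card O * Nat.card Q := (O.card_mul_index).symm
  have hWdvd : Nat.card W ∣ Nat.card H := by
    have h1 : Nat.card W ∣ Nat.card Q := Subgroup.card_subgroup_dvd_card W
    have h2 : Nat.card Q ∣ Nat.card H * p ^ k := by
      rw [← hGcard, hGcard2]; exact dvd_mul_left _ _
    exact (Nat.Coprime.pow_right k hWcop).dvd_of_dvd_mul_right (h1.trans h2)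
  have hHWeq : H.map f = W := by
    apply Subgroup.eq_of_le_of_card_ge hHW
    rw [hHmapcard]
    exact Nat.le_of_dvd Nat.card_pos hWdvd
  -- the quotient `Q / W` is a `p`-group
  have hidx : W.index * Nat.card O = p ^ k := by
    have h1 := W.card_mul_index
    have hWH : Nat.card W = Nat.card H := by rw [← hHWeq, hHmapcard]
    rw [hWH] at h1
    have h2 : Nat.card H * p ^ k = Nat.card H * (W.index * Nat.card O) := by
      rw [← hGcard, hGcard2, ← h1]; ring
    exact (Nat.eq_of_mul_eq_mul_left Nat.card_pos h2).symm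
  have hidxdvd : W.index ∣ p ^ k := Dvd.intro _ hidx
  have hfx : f x ∈ W := by
    have hordx : (orderOf (f x)).Coprime p :=
      Nat.Coprime.coprime_dvd_left (orderOf_map_dvd f x) hx
    have h1 : orderOf ((f x : Q) : Q ⧸ W) ∣ W.index := orderOf_dvd_natCard _
    have h2 : orderOf ((f x : Q) : Q ⧸ W) ∣ orderOf (f x) :=
      orderOf_map_dvd (QuotientGroup.mk' W) (f x)
    have h3 : orderOf ((f x : Q) : Q ⧸ W) = 1 :=
      Nat.Coprime.eq_one_of_dvd (Nat.Coprime.coprime_dvd_left h2
        (Nat.Coprime.pow_right k hordx)) (h1.trans hidxdvd)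
    rw [orderOf_eq_one_iff] at h3
    exact (QuotientGroup.eq_one_iff _).mp h3
  let M : Subgroup G := W.comap f
  have hxM : x ∈ M := hfx
  have hOM : O ≤ M := by
    intro o ho
    have : f o = 1 := (QuotientGroup.eq_one_iff _).mpr ho
    show f o ∈ W
    rw [this]
    exact W.one_mem
  have hHM : H ≤ M := fun h hh => hHW ⟨h, hh, rfl⟩
  have hMmap : M.map f = W := Subgroup.map_comap_eq_self_of_surjective hf W
  have hMcard : Nat.card M = Nat.card H * Nat.card O := by
    have := card_eq_card_map_mk_mul hOM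
    have hWH : Nat.card W = Nat.card H := by rw [← hHWeq, hHmapcard]
    rw [show M.map (QuotientGroup.mk' O) = W from hMmap, hWH] at this
    rw [this, mul_comm]
  have hMsol : Group.IsSolvable M := by
    apply isSolvable_of_comm_mod_pCore (p := p)
    intro u hu v hv
    have hu2 : f u ∈ H.map f := hHWeq ▸ hu
    have hv2 : f v ∈ H.map f := hHWeq ▸ hv
    obtain ⟨u', hu', hu3⟩ := hu2
    obtain ⟨v', hv', hv3⟩ := hv2
    have hcomm : u' * v' = v' * u' := congrArg Subtype.val (hab.is_comm.comm ⟨u', hu'⟩ ⟨v', hv'⟩)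
    rw [← QuotientGroup.eq_one_iff]
    have h5 : f u * f v * (f u)⁻¹ * (f v)⁻¹ = 1 := by
      rw [← hu3, ← hv3, ← map_mul, hcomm, map_mul]; group
    exact h5
  haveI := hMsol
  let X : M := ⟨x, hxM⟩
  have hXord : orderOf X = orderOf x := Subgroup.orderOf_mk x hxM
  have hcopHO : (Nat.card H).Coprime (Nat.card O) := hcopOH.symm
  obtain ⟨L, hLcard, hXL⟩ := Cfsg.Agent.Lib.Hall.exists_card_eq_and_le_of_solvable
    (Nat.card H) (Nat.card O) hMcard hcopHO (Subgroup.zpowers X) (by
      rw [Nat.card_zpowers, hXord, hi]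
      exact Nat.Coprime.pow_right i hx)
  have hHcard' : Nat.card (H.subgroupOf M) = Nat.card H := card_subgroupOf_of_le hHM
  obtain ⟨g, hg⟩ := Cfsg.Agent.Lib.Hall.exists_conj_of_card_eq_of_solvable
    (Nat.card H) (Nat.card O) hMcard hcopHO (H.subgroupOf M) L hHcard' hLcard
  have hXmem : X ∈ MulAut.conj g • (H.subgroupOf M) := by
    rw [hg]
    exact hXL (Subgroup.mem_zpowers X)
  rw [Subgroup.mem_pointwise_smul_iff_inv_smul_mem] at hXmem
  have hh1 : ((g⁻¹ * X * g : M) : G) ∈ H := by
    have : (MulAut.conj g)⁻¹ • X = g⁻¹ * X * g := by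
      simp [MulAut.smul_def, MulAut.conj_inv_apply]
    rw [this] at hXmem
    exact hXmem
  obtain ⟨j, hj⟩ := hHpow _ hh1
  refine ⟨j, ?_⟩
  rw [← hj]
  apply index_centralizer_eq_of_isConj
  rw [isConj_iff]
  refine ⟨((g : M) : G)⁻¹, ?_⟩
  simp
  rfl

end Main

end Cfsg.Agent.Lib.Coprime
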