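import Mathlib
import Cfsg.Agent.Lib.Coprime.GlauberStep
import Cfsg.Agent.Lib.Coprime.CopDeg
import Cfsg.Agent.Lib.Degree.Inflate
import Cfsg.Agent.S0886

/-!
# Irreducible characters over a normal subgroup with cyclic quotient: values on a generating coset
-/

set_option autoImplicit false
set_option linter.style.haveILetI false
set_option linter.unusedSectionVars false
set_option linter.unusedSimpArgs false
set_option linter.unnecessarySimpa false

open scoped ComplexConjugate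
open Cfsg Cfsg.Agent.Lib.Char Cfsg.Agent.Lib.Degree

namespace Cfsg.Agent.Lib.Coprime

universe u

section Dicho

variable {G : Type u} [Group G] [Finite G]

/-- An irreducible character with the normal subgroup `N` in its kernel and abelian `G / N` is linear. -/
theorem irr_one_of_comm_quot (N : Subgroup G) [hN : N.Normal] (hcomm : ∀ a b : G, a * b * a⁻¹ * b⁻¹ ∈ N)
    {β : G → ℂ} (hβ : IsIrrCharacter G β) (hker : ∀ n ∈ N, β n = β 1) : β 1 = 1 := by
  obtain ⟨ψ, hψ⟩ := exists_inflate N (χ := ⟨β, hβ⟩) hker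
  have hc : ∀ a b : G ⧸ N, a * b = b * a := by
    intro a b
    obtain ⟨a, rfl⟩ := QuotientGroup.mk_surjective a
    obtain ⟨b, rfl⟩ := QuotientGroup.mk_surjective b
    rw [← QuotientGroup.mk_mul, ← QuotientGroup.mk_mul, QuotientGroup.eq]
    have h1 := hcomm b⁻¹ a⁻¹
    have h2 : (a * b)⁻¹ * (b * a) = b⁻¹ * a⁻¹ * b⁻¹⁻¹ * a⁻¹⁻¹ := by group
    rw [h2]
    exact h1
  have h1 := (comm_iff_forall_irr_degree_one.mp hc) ψ
  have h2 : ((inflate N ψ : IrrCharacter G) : G → ℂ) 1 = (ψ : G ⧸ N → ℂ) 1 := by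
    simp [inflate_apply]
  rw [hψ] at h2
  simpa [h1] using h2

/-- **Dichotomy**: an irreducible character not vanishing on a generating coset has irreducible restriction. -/
theorem irr_restrict_of_ne_zero (N : Subgroup G) [hN : N.Normal] [Fintype N] (t : G)
    (hgen : ∀ T : Subgroup G, N ≤ T → t ∈ T → T = ⊤) (hcomm : ∀ a b : G, a * b * a⁻¹ * b⁻¹ ∈ N)
    (hcyc : IsCyclic (G ⧸ N)) {X : G → ℂ} (hX : IsIrrCharacter G X) {n : G} (hn : n ∈ N) (h : X (n * t) ≠ 0) :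
    IsIrrCharacter N (fun m : N => X m) := by
  classical
  letI : Fintype G := Fintype.ofFinite G
  have hres := IsCharacter.restrict N (IsIrrCharacter.isCharacter hX)
  have hne : (fun m : N => X m) ≠ 0 := by
    intro h0
    have h1 := congrFun h0 1
    simp only [OneMemClass.coe_one, Pi.zero_apply] at h1
    obtain ⟨d, hd, hd0, -⟩ := IsIrrCharacter_degree_dvd hX
    rw [hd] at h1
    exact hd0 (by exact_mod_cast h1)
  obtain ⟨θ, hθ, hcon⟩ := exists_constituent hres hne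
  have hNT : N ≤ inertia hN θ := le_inertia hN (IsCharacter.isClassFunction (IsIrrCharacter.isCharacter hθ))
  by_cases ht : t ∈ inertia hN θ
  · have htop := hgen _ hNT ht
    have hinv : ∀ (g : G) (m : N), θ ⟨g * m * g⁻¹, hN.conj_mem m m.2 g⟩ = θ m := by
      intro g m
      have hg : g ∈ inertia hN θ := by rw [htop]; trivial
      exact (mem_inertia_iff hN θ g).mp hg m
    obtain ⟨χh, hχh, hext⟩ := Cfsg.Agent.S0886.result N hcyc θ hθ hinv
    have hbij := gallagher_ext N hθ hχh hext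
    obtain ⟨β, ⟨hβ, hβN⟩, hβX⟩ := hbij.surjOn (show X ∈ _ from ⟨hX, hcon⟩)
    have hβ1 := irr_one_of_comm_quot N hcomm hβ hβN
    have hrest : (fun m : N => X m) = θ := by
      funext m
      have h1 := congrFun hβX (m : G)
      simp only [Pi.mul_apply] at h1
      rw [← h1, hβN m m.2, hβ1, one_mul, hext]
    rw [hrest]
    exact hθ
  · exfalso
    letI : Fintype (inertia hN θ) := Fintype.ofFinite _
    obtain ⟨ψ, -, hψ, -⟩ := clifford_correspondence hN hθ rfl hNT hX hcon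
    apply h
    rw [← hψ, indFun_apply]
    have hzero : ∀ x : G, extendByZero (inertia hN θ) ψ (x⁻¹ * (n * t) * x) = 0 := by
      intro x
      apply extendByZero_of_not_mem
      intro hmem
      apply ht
      have h2 : t = n⁻¹ * (x * (x⁻¹ * (n * t) * x) * x⁻¹) := by group
      rw [h2]
      refine (inertia hN θ).mul_mem ((inertia hN θ).inv_mem (hNT hn)) ?_
      have h3 : x * (x⁻¹ * (n * t) * x) * x⁻¹ =
          (x * (x⁻¹ * (n * t) * x) * x⁻¹ * (x⁻¹ * (n * t) * x)⁻¹) * (x⁻¹ * (n * t) * x) := by group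
      rw [h3]
      exact (inertia hN θ).mul_mem (hNT (hcomm _ _)) hmem
    simp [hzero]

end Dicho

section SD

variable {Y A : Type u} [Group Y] [Group A] [Finite Y] [Finite A] {φ : A →* MulAut Y}

open SemidirectProduct

theorem sd_comm_mem (hA : ∀ a b : A, a * b = b * a) (a b : Y ⋊[φ] A) :
    a * b * a⁻¹ * b⁻¹ ∈ (inl : Y →* Y ⋊[φ] A).range := by
  rw [SemidirectProduct.range_inl_eq_ker_rightHom, MonoidHom.mem_ker]
  simp only [map_mul, map_inv]
  rw [hA (rightHom a) (rightHom b)]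
  group

theorem sd_gen {a₁ : A} (hgen : ∀ a, a ∈ Subgroup.zpowers a₁) (T : Subgroup (Y ⋊[φ] A))
    (h1 : (inl : Y →* Y ⋊[φ] A).range ≤ T) (h2 : (inr a₁ : Y ⋊[φ] A) ∈ T) : T = ⊤ := by
  rw [eq_top_iff]
  intro g _
  rw [← inl_left_mul_inr_right g]
  refine T.mul_mem (h1 ⟨_, rfl⟩) ?_
  obtain ⟨k, hk⟩ := hgen g.right
  simp only at hk
  rw [← hk, map_zpow]
  exact T.zpow_mem h2 k

theorem sd_quot_cyclic (φ : A →* MulAut Y) [IsCyclic A] [(inl : Y →* Y ⋊[φ] A).range.Normal] :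
    IsCyclic ((Y ⋊[φ] A) ⧸ (inl : Y →* Y ⋊[φ] A).range) := by
  refine isCyclic_of_surjective ((QuotientGroup.mk' (inl : Y →* Y ⋊[φ] A).range).comp (inr : A →* Y ⋊[φ] A)) ?_
  intro z
  obtain ⟨g, rfl⟩ := QuotientGroup.mk_surjective z
  refine ⟨g.right, ?_⟩
  show ((inr g.right : Y ⋊[φ] A) : (Y ⋊[φ] A) ⧸ (inl : Y →* Y ⋊[φ] A).range) = g
  rw [QuotientGroup.eq]
  refine ⟨(φ g.right)⁻¹ g.left, ?_⟩
  apply SemidirectProduct.ext
  · simp
  · simp

/-- Dichotomy for a semidirect product with cyclic group. -/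
theorem sd_irr_of_ne_zero {a₁ : A} (hgen : ∀ a, a ∈ Subgroup.zpowers a₁) {X : Y ⋊[φ] A → ℂ}
    (hX : IsIrrCharacter _ X) {y₀ : Y} (h : X (inl y₀ * inr a₁) ≠ 0) :
    IsIrrCharacter Y (fun y => X (inl y)) := by
  classical
  haveI := sd_finite' φ
  haveI := sd_normal φ
  haveI hcA : IsCyclic A := ⟨⟨a₁, hgen⟩⟩
  have hcommA : ∀ a b : A, a * b = b * a := fun a b => IsMulCommutative.is_comm.comm a b
  let N : Subgroup (Y ⋊[φ] A) := (inl : Y →* Y ⋊[φ] A).range
  letI : Fintype N := Fintype.ofFinite _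
  have h1 : IsIrrCharacter N (fun m : N => X m) :=
    irr_restrict_of_ne_zero N (inr a₁) (sd_gen hgen) (sd_comm_mem hcommA) (sd_quot_cyclic φ) hX ⟨y₀, rfl⟩ h
  let e : Y ≃* N := MonoidHom.ofInjective inl_injective
  exact isIrr_comp_equiv e h1

/-- The shape of an irreducible character not vanishing on a generating coset. -/
theorem sd_structure (E : IrrInv φ → (Y ⋊[φ] A → ℂ)) (hE : ∀ ξ, IsIrrCharacter _ (E ξ))
    (hEy : ∀ ξ y, E ξ (inl y) = (ξ.1 : Y → ℂ) y) {a₁ : A} (hgen : ∀ a, a ∈ Subgroup.zpowers a₁)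
    {Ξ : Y ⋊[φ] A → ℂ} (hΞ : IsIrrCharacter _ Ξ) {y₀ : Y} (h : Ξ (inl y₀ * inr a₁) ≠ 0) :
    ∃ (ξ : IrrInv φ) (l : A →* ℂˣ), ∀ (y : Y) (a : A), Ξ (inl y * inr a) = (l a : ℂ) * E ξ (inl y * inr a) := by
  classical
  haveI := sd_finite' φ
  haveI := sd_normal φ
  haveI hcA : IsCyclic A := ⟨⟨a₁, hgen⟩⟩
  letI : Fintype (Y ⋊[φ] A) := Fintype.ofFinite _
  have hirr := sd_irr_of_ne_zero hgen hΞ h
  have hinv : IsInv φ (fun y => Ξ (inl y)) := by
    intro a y
    simp only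
    rw [inl_aut, map_inv, IsCharacter.isClassFunction (IsIrrCharacter.isCharacter hΞ)]
  let ξ : IrrInv φ := ⟨⟨_, hirr⟩, hinv⟩
  let N : Subgroup (Y ⋊[φ] A) := (inl : Y →* Y ⋊[φ] A).range
  letI : Fintype N := Fintype.ofFinite _
  let e : Y ≃* N := MonoidHom.ofInjective inl_injective
  have hcoe : ∀ y : Y, ((e y : N) : Y ⋊[φ] A) = inl y := fun y => rfl
  let θ : N → ℂ := fun m => Ξ m
  have hθ : IsIrrCharacter N θ :=
    irr_restrict_of_ne_zero N (inr a₁) (sd_gen hgen) (sd_comm_mem (fun a b => IsMulCommutative.is_comm.comm a b))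
      (sd_quot_cyclic φ) hΞ ⟨y₀, rfl⟩ h
  have hext : ∀ m : N, E ξ m = θ m := by
    intro m
    obtain ⟨y, hy⟩ := e.surjective m
    rw [← hy]
    show E ξ (inl y) = Ξ (inl y)
    exact hEy ξ y
  have hbij := gallagher_ext N hθ (hE ξ) hext
  have hmem : Ξ ∈ {ψ : Y ⋊[φ] A → ℂ | IsIrrCharacter _ ψ ∧ classInner (fun n : N => ψ n) θ ≠ 0} := by
    refine ⟨hΞ, ?_⟩
    show classInner θ θ ≠ 0
    rw [classInner_irr_self hθ]
    exact one_ne_zero
  obtain ⟨β, ⟨hβ, hβN⟩, hβΞ⟩ := hbij.surjOn hmem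
  have hβΞ' : ∀ g, Ξ g = β g * E ξ g := fun g => (congrFun hβΞ g).symm
  have hβ1 : β 1 = 1 := by
    have h1 := hβΞ' 1
    have h2 : E ξ 1 = Ξ 1 := hext 1
    rw [h2] at h1
    obtain ⟨d, hd, hd0, -⟩ := IsIrrCharacter_degree_dvd hΞ
    have hne : Ξ 1 ≠ 0 := by
      rw [hd]
      exact_mod_cast hd0
    exact mul_right_cancel₀ hne (by rw [← h1, one_mul])
  obtain ⟨l₀, hl₀⟩ := exists_hom_of_character_one (IsIrrCharacter.isCharacter hβ) hβ1
  refine ⟨ξ, l₀.comp inr, fun y a => ?_⟩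
  rw [hβΞ']
  congr 1
  have h3 : β (inl y * inr a) = ((l₀ (inl y * inr a) : ℂˣ) : ℂ) := congrFun hl₀ _
  have h4 : ((l₀ (inl y) : ℂˣ) : ℂ) = 1 := by
    have h5 : β (inl y) = ((l₀ (inl y) : ℂˣ) : ℂ) := congrFun hl₀ _
    rw [← h5, hβN _ ⟨y, rfl⟩, hβ1]
  rw [h3, map_mul, Units.val_mul, h4, one_mul]
  rfl

end SD

end Cfsg.Agent.Lib.Coprime
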