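import Mathlib
import Cfsg.Agent.Lib.Coprime.GlauberArith

/-!
# Character values at generators of a cyclic `p`-group: the quadratic form on blocks
-/

set_option autoImplicit false
set_option linter.style.haveILetI false
set_option linter.unusedSectionVars false
set_option linter.unusedSimpArgs false
set_option linter.unnecessarySimpa false

open scoped ComplexConjugate

namespace Cfsg.Agent.Lib.Coprime

section Blocks

variable {p m : ℕ}

/-- The `j`-th block of a vector on `Fin (p * m)`: the coset of the subgroup of order `p`. -/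
def blockOf (v : Fin (p * m) → ℤ) (j : Fin m) : Fin p → ℤ := fun i => v (finProdFinEquiv (i, j))

/-- The value at the `u`-th power of a generator of a character with multiplicity vector `v`. -/
noncomputable def cycVal (ζ : ℂ) (v : Fin (p * m) → ℤ) (u : ℕ) : ℂ := ∑ r : Fin (p * m), (v r : ℂ) * ζ ^ ((r : ℕ) * u)

theorem sum_eq_blocks {M : Type*} [AddCommMonoid M] (f : Fin (p * m) → M) :
    ∑ r, f r = ∑ j : Fin m, ∑ i : Fin p, f (finProdFinEquiv (i, j)) := by
  rw [← finProdFinEquiv.sum_comp f, Fintype.sum_prod_type, Finset.sum_comm]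

theorem cycVal_eq_blocks (ζ : ℂ) (v : Fin (p * m) → ℤ) (u : ℕ) :
    cycVal ζ v u = ∑ j : Fin m, ∑ i : Fin p, (blockOf v j i : ℂ) * ζ ^ (((j : ℕ) + m * (i : ℕ)) * u) := by
  unfold cycVal
  rw [sum_eq_blocks]
  rfl

/-- The sum of the values at the generators. -/
theorem cyc_sum (hp : p.Prime) (hm : m ≠ 0) {ζ : ℂ} (hζ : IsPrimitiveRoot ζ (p * m)) (v : Fin (p * m) → ℤ) :
    ∑ u ∈ (Finset.range (p * m)).filter (fun u => ¬ p ∣ u), cycVal ζ v u * conj (cycVal ζ v u) =
      (m : ℂ) * ((∑ j : Fin m, quadForm (blockOf v j) : ℤ) : ℂ) := by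
  classical
  have hp0 := hp.ne_zero
  have hpm : p * m ≠ 0 := mul_ne_zero hp0 hm
  have hA := sum_range_norm_sq hpm hζ v
  have hζp : IsPrimitiveRoot (ζ ^ p) m := hζ.pow (Nat.pos_of_ne_zero hpm) rfl
  let W : Fin m → ℤ := fun j => ∑ i, blockOf v j i
  have hB := sum_range_norm_sq hm hζp W
  have hval : ∀ u : ℕ, cycVal ζ v (p * u) = ∑ j : Fin m, (W j : ℂ) * (ζ ^ p) ^ ((j : ℕ) * u) := by
    intro u
    rw [cycVal_eq_blocks]
    refine Finset.sum_congr rfl fun j _ => ?_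
    simp only [W]
    push_cast
    rw [Finset.sum_mul]
    refine Finset.sum_congr rfl fun i _ => ?_
    congr 1
    have h1 : ζ ^ (p * m) = 1 := hζ.pow_eq_one
    calc ζ ^ (((j : ℕ) + m * (i : ℕ)) * (p * u))
        = (ζ ^ p) ^ ((j : ℕ) * u) * (ζ ^ (p * m)) ^ ((i : ℕ) * u) := by
          rw [← pow_mul, ← pow_mul, ← pow_add]
          congr 1
          ring
      _ = _ := by rw [h1, one_pow, mul_one]
  have hsplit := Finset.sum_filter_add_sum_filter_not (Finset.range (p * m)) (fun u => p ∣ u)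
    (fun u => cycVal ζ v u * conj (cycVal ζ v u))
  have himg : (Finset.range (p * m)).filter (fun u => p ∣ u) = (Finset.range m).image (fun u => p * u) := by
    ext u
    simp only [Finset.mem_filter, Finset.mem_range, Finset.mem_image]
    constructor
    · rintro ⟨h1, w, rfl⟩
      exact ⟨w, lt_of_mul_lt_mul_left h1 (Nat.zero_le _), rfl⟩
    · rintro ⟨w, h1, rfl⟩
      exact ⟨Nat.mul_lt_mul_of_pos_left h1 hp.pos, dvd_mul_right _ _⟩
  have hsum1 : ∑ u ∈ (Finset.range (p * m)).filter (fun u => p ∣ u), cycVal ζ v u * conj (cycVal ζ v u) =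
      (m : ℂ) * ∑ j : Fin m, (W j : ℂ) ^ 2 := by
    rw [himg, Finset.sum_image (fun a _ b _ h => Nat.eq_of_mul_eq_mul_left hp.pos h), ← hB]
    refine Finset.sum_congr rfl fun u _ => ?_
    rw [hval]
  have hsum2 : ∑ u ∈ Finset.range (p * m), cycVal ζ v u * conj (cycVal ζ v u) =
      ((p * m : ℕ) : ℂ) * ∑ r : Fin (p * m), (v r : ℂ) ^ 2 := hA
  rw [hsum1, hsum2] at hsplit
  have h3 : ∑ r : Fin (p * m), (v r : ℂ) ^ 2 = ∑ j : Fin m, ∑ i : Fin p, (blockOf v j i : ℂ) ^ 2 :=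
    sum_eq_blocks _
  rw [h3] at hsplit
  have h4 : ((∑ j : Fin m, quadForm (blockOf v j) : ℤ) : ℂ) =
      (p : ℂ) * ∑ j : Fin m, ∑ i : Fin p, (blockOf v j i : ℂ) ^ 2 - ∑ j : Fin m, (W j : ℂ) ^ 2 := by
    simp only [quadForm, Fintype.card_fin, W]
    push_cast
    rw [Finset.mul_sum, ← Finset.sum_sub_distrib]
  rw [h4]
  push_cast at hsplit
  linear_combination hsplit

variable {ζ : ℂ}

/-- A constant block contributes nothing at a generator. -/
theorem block_const_sum (hp : p.Prime) (hm : m ≠ 0) (hζ : IsPrimitiveRoot ζ (p * m)) (c : ℂ) (j : ℕ) {u : ℕ}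
    (hu : ¬ p ∣ u) : ∑ i : Fin p, c * ζ ^ ((j + m * (i : ℕ)) * u) = 0 := by
  have hζm : IsPrimitiveRoot (ζ ^ m) p := by
    refine hζ.pow (Nat.pos_of_ne_zero (mul_ne_zero hp.ne_zero hm)) (by rw [mul_comm])
  have h1 := sum_fin_pow_of_primitive hζm hu
  have h2 : ∀ i : Fin p, c * ζ ^ ((j + m * (i : ℕ)) * u) = c * ζ ^ (j * u) * (ζ ^ m) ^ ((i : ℕ) * u) := by
    intro i
    rw [mul_assoc, ← pow_mul, ← pow_add]
    congr 2
    ring
  simp only [h2]
  rw [← Finset.mul_sum, h1, mul_zero]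

/-- The value at a generator when all blocks are constant. -/
theorem cycVal_of_const (hp : p.Prime) (hm : m ≠ 0) (hζ : IsPrimitiveRoot ζ (p * m)) {v : Fin (p * m) → ℤ}
    (h : ∀ j i i', blockOf v j i = blockOf v j i') {u : ℕ} (hu : ¬ p ∣ u) : cycVal ζ v u = 0 := by
  rw [cycVal_eq_blocks]
  refine Finset.sum_eq_zero fun j _ => ?_
  haveI : NeZero p := ⟨hp.ne_zero⟩
  have h2 : ∀ i : Fin p, (blockOf v j i : ℂ) * ζ ^ (((j : ℕ) + m * (i : ℕ)) * u) =
      (blockOf v j 0 : ℂ) * ζ ^ (((j : ℕ) + m * (i : ℕ)) * u) := fun i => by rw [h j i 0]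
  simp only [h2]
  exact block_const_sum hp hm hζ _ _ hu

/-- The value at a generator when exactly one block is not constant. -/
theorem cycVal_of_one (hp : p.Prime) (hm : m ≠ 0) (hζ : IsPrimitiveRoot ζ (p * m)) {v : Fin (p * m) → ℤ}
    {j₀ : Fin m} {t ε : ℤ} {i₀ : Fin p} (h₀ : ∀ i, blockOf v j₀ i = t + if i = i₀ then ε else 0)
    (h : ∀ j, j ≠ j₀ → ∀ i i', blockOf v j i = blockOf v j i') {u : ℕ} (hu : ¬ p ∣ u) :
    cycVal ζ v u = (ε : ℂ) * ζ ^ (((j₀ : ℕ) + m * (i₀ : ℕ)) * u) := by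
  classical
  haveI : NeZero p := ⟨hp.ne_zero⟩
  rw [cycVal_eq_blocks, Finset.sum_eq_single j₀]
  · have h2 : ∀ i : Fin p, (blockOf v j₀ i : ℂ) * ζ ^ (((j₀ : ℕ) + m * (i : ℕ)) * u) =
        (t : ℂ) * ζ ^ (((j₀ : ℕ) + m * (i : ℕ)) * u) +
          if i = i₀ then (ε : ℂ) * ζ ^ (((j₀ : ℕ) + m * (i : ℕ)) * u) else 0 := by
      intro i
      rw [h₀ i]
      split_ifs <;> push_cast <;> ring
    simp only [h2]
    rw [Finset.sum_add_distrib, block_const_sum hp hm hζ _ _ hu, zero_add, Finset.sum_ite_eq' Finset.univ i₀,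
      if_pos (Finset.mem_univ _)]
  · intro j _ hj
    have h2 : ∀ i : Fin p, (blockOf v j i : ℂ) * ζ ^ (((j : ℕ) + m * (i : ℕ)) * u) =
        (blockOf v j 0 : ℂ) * ζ ^ (((j : ℕ) + m * (i : ℕ)) * u) := fun i => by rw [h j hj i 0]
    simp only [h2]
    exact block_const_sum hp hm hζ _ _ hu
  · intro h3
    exact absurd (Finset.mem_univ _) h3

/-- The total multiplicity when all blocks are constant. -/
theorem sum_of_const (hp : p.Prime) {v : Fin (p * m) → ℤ} (h : ∀ j i i', blockOf v j i = blockOf v j i') :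
    ∃ t : ℤ, ∑ r, v r = (p : ℤ) * t := by
  haveI : NeZero p := ⟨hp.ne_zero⟩
  refine ⟨∑ j : Fin m, blockOf v j 0, ?_⟩
  rw [sum_eq_blocks, Finset.mul_sum]
  refine Finset.sum_congr rfl fun j _ => ?_
  have h2 : ∀ i : Fin p, v (finProdFinEquiv (i, j)) = blockOf v j 0 := fun i => h j i 0
  simp [h2]

/-- The total multiplicity when exactly one block is not constant. -/
theorem sum_of_one (hp : p.Prime) {v : Fin (p * m) → ℤ}
    {j₀ : Fin m} {t ε : ℤ} {i₀ : Fin p} (h₀ : ∀ i, blockOf v j₀ i = t + if i = i₀ then ε else 0)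
    (h : ∀ j, j ≠ j₀ → ∀ i i', blockOf v j i = blockOf v j i') :
    ∃ t' : ℤ, ∑ r, v r = (p : ℤ) * t' + ε := by
  classical
  haveI : NeZero p := ⟨hp.ne_zero⟩
  refine ⟨t + ∑ j ∈ Finset.univ.erase j₀, blockOf v j 0, ?_⟩
  rw [sum_eq_blocks, ← Finset.add_sum_erase Finset.univ _ (Finset.mem_univ j₀)]
  have h1 : ∑ i : Fin p, v (finProdFinEquiv (i, j₀)) = (p : ℤ) * t + ε := by
    have h2 : ∀ i : Fin p, v (finProdFinEquiv (i, j₀)) = t + if i = i₀ then ε else 0 := h₀
    simp only [h2]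
    rw [Finset.sum_add_distrib, Finset.sum_ite_eq' Finset.univ i₀, if_pos (Finset.mem_univ _)]
    simp
  have h3 : ∑ j ∈ Finset.univ.erase j₀, ∑ i : Fin p, v (finProdFinEquiv (i, j)) =
      (p : ℤ) * ∑ j ∈ Finset.univ.erase j₀, blockOf v j 0 := by
    rw [Finset.mul_sum]
    refine Finset.sum_congr rfl fun j hj => ?_
    have h2 : ∀ i : Fin p, v (finProdFinEquiv (i, j)) = blockOf v j 0 :=
      fun i => h j (Finset.ne_of_mem_erase hj) i 0
    simp [h2]
  rw [h1, h3]
  ring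

end Blocks

section Unique

/-- If the quadratic forms of a family of vectors on `Fin p` sum to `p - 1`, exactly one of them is not constant
and it differs from a constant by a sign at one place. -/
theorem unique_nonconst {ι : Type*} [Fintype ι] [DecidableEq ι] {p : ℕ} (hp : 2 ≤ p) (w : ι → Fin p → ℤ)
    (h : ∑ x, quadForm (w x) = (p : ℤ) - 1) :
    ∃ (x₀ : ι) (t ε : ℤ) (i₀ : Fin p), (ε = 1 ∨ ε = -1) ∧ (∀ i, w x₀ i = t + if i = i₀ then ε else 0) ∧
      ∀ x, x ≠ x₀ → ∀ i i', w x i = w x i' := by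
  classical
  have hcard : ((Fintype.card (Fin p) : ℕ) : ℤ) - 1 = (p : ℤ) - 1 := by rw [Fintype.card_fin]
  have hp1 : (1 : ℤ) ≤ (p : ℤ) - 1 := by
    have : (2 : ℤ) ≤ p := by exact_mod_cast hp
    linarith
  have hconst : ∀ x, (∀ i i', w x i = w x i') → quadForm (w x) = 0 := fun x h => quadForm_const h
  have hlow : ∀ x, (∃ i i', w x i ≠ w x i') → (p : ℤ) - 1 ≤ quadForm (w x) := by
    intro x hx
    have := (quadForm_main hx).1
    rwa [hcard] at this
  have hnn : ∀ x, 0 ≤ quadForm (w x) := by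
    intro x
    by_cases hx : ∃ i i', w x i ≠ w x i'
    · have := hlow x hx
      linarith
    · push Not at hx
      rw [hconst x hx]
  have hex : ∃ x₀, ∃ i i', w x₀ i ≠ w x₀ i' := by
    by_contra hcon
    push Not at hcon
    have h1 : ∑ x, quadForm (w x) = 0 := Finset.sum_eq_zero fun x _ => hconst x (hcon x)
    rw [h1] at h
    linarith
  obtain ⟨x₀, hx₀⟩ := hex
  have hle : ∀ x, quadForm (w x) ≤ (p : ℤ) - 1 := by
    intro x
    rw [← h]
    exact Finset.single_le_sum (fun x _ => hnn x) (Finset.mem_univ x)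
  obtain ⟨t, ε, i₀, hε, hv⟩ := (quadForm_main hx₀).2 (by rw [hcard]; exact hle x₀)
  refine ⟨x₀, t, ε, i₀, hε, hv, ?_⟩
  intro x hne
  by_contra hcon
  push Not at hcon
  have h1 := hlow x hcon
  have h2 := hlow x₀ hx₀
  have h3 : quadForm (w x) + quadForm (w x₀) ≤ ∑ y, quadForm (w y) := by
    have h4 := Finset.sum_pair (f := fun y => quadForm (w y)) hne
    rw [← h4]
    exact Finset.sum_le_univ_sum_of_nonneg hnn
  rw [h] at h3
  linarith

end Unique

end Cfsg.Agent.Lib.Coprime
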