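import Mathlib
import Cfsg.Agent.Lib.Coprime.CosetFusion
import Cfsg.Agent.Lib.Coprime.PDicho
import Cfsg.Agent.Lib.Coprime.PQuad

/-!
# The correspondence for cyclic `p`-groups acting on groups with `p'`-quotient
-/

set_option autoImplicit false
set_option linter.style.haveILetI false
set_option linter.unusedSectionVars false
set_option linter.unusedSimpArgs false
set_option linter.unnecessarySimpa false

open scoped ComplexConjugate
open Cfsg Cfsg.Agent.Lib.Char Cfsg.Agent.Lib.Degree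

namespace Cfsg.Agent.Lib.Coprime

universe u

section Avg

variable {G C : Type u} [Group G] [Group C] [Finite G] [Fintype C]

/-- Averaging a character over an injected normal subgroup. -/
theorem avg_isCharacter {i : C →* G} (hi : Function.Injective i) (hn : i.range.Normal) {Θ : G → ℂ}
    (hΘ : IsCharacter G Θ) : IsCharacter G (fun t => (Nat.card C : ℂ)⁻¹ * ∑ c : C, Θ (i c * t)) := by
  classical
  letI : Fintype G := Fintype.ofFinite _
  haveI := hn
  letI : Fintype i.range := Fintype.ofFinite _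
  have h1 := cosetAvg_isCharacter i.range hΘ
  let e : C ≃* i.range := MonoidHom.ofInjective hi
  have hcard : Nat.card i.range = Nat.card C := Nat.card_congr e.toEquiv.symm
  have h2 : cosetAvg i.range Θ = fun t => (Nat.card C : ℂ)⁻¹ * ∑ c : C, Θ (i c * t) := by
    funext t
    rw [cosetAvg_apply, hcard]
    congr 1
    exact (Fintype.sum_equiv e.toEquiv _ _ fun c => rfl).symm
  rw [← h2]
  exact h1

end Avg

section PData

variable {Y C A : Type u} [Group Y] [Group C] [Group A]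

open SemidirectProduct

/-- The data of the correspondence: `A` acts on `Y`, `Q` is an invariant normal subgroup of index prime to `p`, and
`C` is embedded in `Y` as the preimage of the fixed points on `Y / Q`, with compatible action. -/
structure PData (φ : A →* MulAut Y) (φ₁ : A →* MulAut C) (j : C →* Y) (Q : Subgroup Y) (p : ℕ) : Prop where
  j_inj : Function.Injective j
  compat : ∀ a c, j (φ₁ a c) = φ a (j c)
  Q_normal : Q.Normal
  Q_inv : ∀ a, ∀ y ∈ Q, φ a y ∈ Q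
  not_dvd : ¬ p ∣ Q.index
  range : ∀ y, y ∈ j.range ↔ ∀ a, φ a y * y⁻¹ ∈ Q

variable {φ : A →* MulAut Y} {φ₁ : A →* MulAut C} {j : C →* Y} {Q : Subgroup Y} {p : ℕ}

/-- The induced map on semidirect products. -/
def PData.map (D : PData φ φ₁ j Q p) : C ⋊[φ₁] A →* Y ⋊[φ] A :=
  SemidirectProduct.map j (MonoidHom.id A) (fun a => by
    ext c
    exact D.compat a c)

@[simp] theorem PData.map_inl (D : PData φ φ₁ j Q p) (c : C) : D.map (inl c) = inl (j c) :=
  SemidirectProduct.map_inl _ _ _ c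

@[simp] theorem PData.map_inr (D : PData φ φ₁ j Q p) (a : A) : D.map (inr a) = inr a :=
  SemidirectProduct.map_inr _ _ _ a

/-- Fixing a coset of an invariant normal subgroup can be tested on a generator. -/
theorem fix_all_of_gen (hQinv : ∀ a, ∀ y ∈ Q, φ a y ∈ Q) {a₁ : A} (hgen : ∀ a, a ∈ Subgroup.zpowers a₁) {y : Y}
    (h : φ a₁ y * y⁻¹ ∈ Q) (a : A) : φ a y * y⁻¹ ∈ Q := by
  let St : Subgroup A :=
    { carrier := {a | φ a y * y⁻¹ ∈ Q}
      one_mem' := by simp [Q.one_mem]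
      mul_mem' := by
        intro a b ha hb
        have h1 : φ (a * b) y * y⁻¹ = φ a (φ b y * y⁻¹) * (φ a y * y⁻¹) := by
          simp [map_mul]
        show φ (a * b) y * y⁻¹ ∈ Q
        rw [h1]
        exact Q.mul_mem (hQinv a _ hb) ha
      inv_mem' := by
        intro a ha
        have h1 : φ a⁻¹ y * y⁻¹ = (φ a⁻¹ (φ a y * y⁻¹))⁻¹ := by
          have h2 : φ a⁻¹ (φ a y) = y := by
            rw [← MulAut.mul_apply, ← map_mul]
            simp
          have h3 : φ a⁻¹ y⁻¹ = (φ a⁻¹ y)⁻¹ := MulEquiv.map_inv _ _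
          rw [map_mul, h2, mul_inv_rev, h3, inv_inv]
        show φ a⁻¹ y * y⁻¹ ∈ Q
        rw [h1]
        exact Q.inv_mem (hQinv a⁻¹ _ ha) }
  have h1 : a₁ ∈ St := h
  have h2 : Subgroup.zpowers a₁ ≤ St := Subgroup.zpowers_le.mpr h1
  exact h2 (hgen a)

/-- Membership in the fixed preimage can be tested on a generator. -/
theorem PData.mem_range_of_gen (D : PData φ φ₁ j Q p) {a₁ : A} (hgen : ∀ a, a ∈ Subgroup.zpowers a₁) {y : Y}
    (h : φ a₁ y * y⁻¹ ∈ Q) : y ∈ j.range := by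
  rw [D.range]
  exact fix_all_of_gen D.Q_inv hgen h

/-- The image of `Q` in the semidirect product is normal. -/
theorem PData.normal_map (D : PData φ φ₁ j Q p) : (Q.map (inl : Y →* Y ⋊[φ] A)).Normal := by
  haveI := D.Q_normal
  refine ⟨?_⟩
  rintro _ ⟨q, hq, rfl⟩ g
  rw [← inl_left_mul_inr_right g]
  refine ⟨g.left * φ g.right q * g.left⁻¹, (inferInstance : Q.Normal).conj_mem _ (D.Q_inv _ _ hq) _, ?_⟩
  simp only [mul_inv_rev, map_mul, map_inv]
  rw [inl_aut]
  simp only [map_inv]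
  group

/-- **Control of fusion** in the coset of a generator. -/
theorem PData.fusion (D : PData φ φ₁ j Q p) (hp : p.Prime) {a₁ : A} (hgen : ∀ a, a ∈ Subgroup.zpowers a₁)
    {k : ℕ} (hord : orderOf a₁ = p ^ k) {y : Y} {c c' : C}
    (h : (inl y : Y ⋊[φ] A) * (inl (j c) * inr a₁) * (inl y)⁻¹ = inl (j c') * inr a₁) : y ∈ j.range := by
  classical
  haveI := D.Q_normal
  haveI hQm := D.normal_map
  let π := QuotientGroup.mk' (Q.map (inl : Y →* Y ⋊[φ] A))
  have hπ1 : ∀ q ∈ Q, π (inl q) = 1 := by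
    intro q hq
    rw [QuotientGroup.mk'_apply, QuotientGroup.eq_one_iff]
    exact ⟨q, hq, rfl⟩
  have hcop : (orderOf a₁).Coprime Q.index := by
    rw [hord]
    exact Nat.Coprime.pow_left k ((Nat.Prime.coprime_iff_not_dvd hp).mpr D.not_dvd)
  obtain ⟨r, hr1, hr2⟩ := exists_residue hcop
  have hinl : ∀ x : Y, π (inl x) ^ r = 1 := by
    intro x
    rw [← map_pow, ← map_pow]
    apply hπ1
    obtain ⟨t, ht⟩ := Nat.modEq_zero_iff_dvd.mp hr2
    rw [ht, pow_mul]
    exact Q.pow_mem (Subgroup.pow_index_mem Q x) t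
  have hinr : π (inr a₁) ^ r = π (inr a₁) := by
    rw [← map_pow, ← map_pow]
    have h1 : a₁ ^ r = a₁ := by
      have h2 := (pow_eq_pow_iff_modEq (x := a₁)).mpr hr1
      simpa using h2
    rw [h1]
  have hcomm : ∀ c : C, Commute (π (inl (j c))) (π (inr a₁)) := by
    intro c
    have h1 : φ a₁ (j c) * (j c)⁻¹ ∈ Q := ((D.range (j c)).mp ⟨c, rfl⟩) a₁
    have h2 : π (inl (φ a₁ (j c))) = π (inl (j c)) := by
      have h3 : (inl (φ a₁ (j c)) : Y ⋊[φ] A) = inl (φ a₁ (j c) * (j c)⁻¹) * inl (j c) := by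
        rw [← map_mul]
        simp
      rw [h3, map_mul, hπ1 _ h1, one_mul]
    have h3 : (inl (φ a₁ (j c)) : Y ⋊[φ] A) = inr a₁ * inl (j c) * (inr a₁)⁻¹ := by
      rw [inl_aut, map_inv]
    rw [h3, map_mul, map_mul, map_inv] at h2
    show π (inl (j c)) * π (inr a₁) = π (inr a₁) * π (inl (j c))
    calc π (inl (j c)) * π (inr a₁)
        = (π (inr a₁) * π (inl (j c)) * (π (inr a₁))⁻¹) * π (inr a₁) := by rw [h2]
      _ = _ := by group
  have hkey : ∀ c : C, π (inl (j c) * inr a₁) ^ r = π (inr a₁) := by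
    intro c
    rw [map_mul, (hcomm c).mul_pow, hinl, one_mul, hinr]
  have h1 := congrArg (fun g => π g ^ r) h
  simp only [map_mul, map_inv] at h1
  have h2 : (π (inl y) * (π (inl (j c)) * π (inr a₁)) * (π (inl y))⁻¹) ^ r =
      π (inl y) * (π (inl (j c)) * π (inr a₁)) ^ r * (π (inl y))⁻¹ := conj_pow
  rw [h2] at h1
  have h3 := hkey c
  have h4 := hkey c'
  rw [map_mul] at h3 h4
  rw [h3, h4] at h1
  have h5 : π (inl y * inr a₁ * (inl y)⁻¹ * (inr a₁)⁻¹) = 1 := by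
    simp only [map_mul, map_inv]
    rw [h1]
    group
  rw [QuotientGroup.mk'_apply, QuotientGroup.eq_one_iff] at h5
  obtain ⟨q, hq, hqe⟩ := h5
  have h6 : (inl y * inr a₁ * (inl y)⁻¹ * (inr a₁)⁻¹ : Y ⋊[φ] A) = inl (y * (φ a₁ y)⁻¹) := by
    have h7 : (inl (φ a₁ y) : Y ⋊[φ] A) = inr a₁ * inl y * (inr a₁)⁻¹ := by
      rw [inl_aut, map_inv]
    rw [map_mul, map_inv, h7]
    group
  rw [h6] at hqe
  have h8 : q = y * (φ a₁ y)⁻¹ := inl_injective hqe
  apply D.mem_range_of_gen hgen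
  have h9 : φ a₁ y * y⁻¹ = (y * (φ a₁ y)⁻¹)⁻¹ := by group
  rw [h9, ← h8]
  exact Q.inv_mem hq

variable [Fintype Y] [Fintype C] [Finite A]

/-- The sum of a class function over `C s`. -/
theorem PData.inner_eq (D : PData φ φ₁ j Q p) (hp : p.Prime) {a₁ : A} (hgen : ∀ a, a ∈ Subgroup.zpowers a₁)
    {k : ℕ} (hord : orderOf a₁ = p ^ k) {F : Y ⋊[φ] A → ℂ} (hF : ∀ h g, F (h * g * h⁻¹) = F g) :
    (Nat.card C : ℂ)⁻¹ * ∑ c : C, F (inl (j c) * inr a₁) = (Nat.card Y : ℂ)⁻¹ * ∑ y : Y, F (inl y * inr a₁) := by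
  haveI := sd_finite' φ
  refine fusion_inner_eq (F := F) (i := inl) (j := j) (s := inr a₁) inl_injective D.j_inj (sd_normal φ) ?_ ?_ hF
  · intro c
    refine ⟨φ₁ a₁ c, ?_⟩
    rw [D.compat, inl_aut, map_inv]
  · intro y c c' h
    exact D.fusion hp hgen hord h

/-- The sum of the squares of an extension on `C s`. -/
theorem PData.sum_self (D : PData φ φ₁ j Q p) (hp : p.Prime) {a₁ : A} (hgen : ∀ a, a ∈ Subgroup.zpowers a₁)
    {k : ℕ} (hord : orderOf a₁ = p ^ k) {X : Y ⋊[φ] A → ℂ} (hX : IsCharacter _ X)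
    (hn : classInner (fun y => X (inl y)) (fun y => X (inl y)) = 1) :
    (Nat.card C : ℂ)⁻¹ * ∑ c : C, X (inl (j c) * inr a₁) * conj (X (inl (j c) * inr a₁)) = 1 := by
  haveI := sd_finite' φ
  have h1 := D.inner_eq hp hgen hord (F := fun g => X g * conj (X g)) (core_conj_class hX hX)
  have h2 := core_orth_self inl_injective (sd_normal φ) hX hn (inr a₁)
  rw [h2] at h1
  rw [h1]
  have hY : (Nat.card Y : ℂ) ≠ 0 := by exact_mod_cast Nat.card_pos.ne'
  exact inv_mul_cancel₀ hY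

/-- Orthogonality of two extensions on `C s`. -/
theorem PData.sum_zero (D : PData φ φ₁ j Q p) (hp : p.Prime) {a₁ : A} (hgen : ∀ a, a ∈ Subgroup.zpowers a₁)
    {k : ℕ} (hord : orderOf a₁ = p ^ k) {X X' : Y ⋊[φ] A → ℂ} (hX : IsCharacter _ X) (hX' : IsCharacter _ X')
    (hn : classInner (fun y => X (inl y)) (fun y => X' (inl y)) = 0) :
    ∑ c : C, X (inl (j c) * inr a₁) * conj (X' (inl (j c) * inr a₁)) = 0 := by
  haveI := sd_finite' φ
  have h1 := D.inner_eq hp hgen hord (F := fun g => X g * conj (X' g)) (core_conj_class hX hX')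
  have h2 := core_orth_zero inl_injective (sd_normal φ) hX hX' hn (inr a₁)
  rw [h2, mul_zero] at h1
  have hC : (Nat.card C : ℂ) ≠ 0 := by exact_mod_cast Nat.card_pos.ne'
  exact (mul_eq_zero.mp h1).resolve_left (inv_ne_zero hC)

end PData

section Family

variable {C A : Type u} [Group C] [Group A] [Fintype C] [Finite A] {φ₁ : A →* MulAut C}

open SemidirectProduct

noncomputable instance irrInvFintype (φ₁ : A →* MulAut C) : Fintype (IrrInv φ₁) := Fintype.ofFinite _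

/-- A family of extensions of the invariant irreducible characters to the semidirect product. -/
structure ExtFamily (E : IrrInv φ₁ → (C ⋊[φ₁] A → ℂ)) : Prop where
  irr : ∀ ξ, IsIrrCharacter _ (E ξ)
  ext : ∀ ξ c, E ξ (inl c) = (ξ.1 : C → ℂ) c

theorem exists_extFamily [IsCyclic A] (φ₁ : A →* MulAut C) : ∃ E : IrrInv φ₁ → (C ⋊[φ₁] A → ℂ), ExtFamily E := by
  choose E hE hEy using fun ξ : IrrInv φ₁ => exists_ext_sd φ₁ ξ.1.2 ξ.2
  exact ⟨E, hE, hEy⟩

variable {E : IrrInv φ₁ → (C ⋊[φ₁] A → ℂ)}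

theorem ExtFamily.orth_self (hE : ExtFamily E) (ξ : IrrInv φ₁) (t : C ⋊[φ₁] A) :
    ∑ c : C, E ξ (inl c * t) * conj (E ξ (inl c * t)) = (Nat.card C : ℂ) := by
  haveI := sd_finite' φ₁
  refine core_orth_self inl_injective (sd_normal φ₁) (IsIrrCharacter.isCharacter (hE.irr ξ)) ?_ t
  simp only [hE.ext]
  exact classInner_irr_self ξ.1.2

theorem ExtFamily.orth_zero (hE : ExtFamily E) {ξ ξ' : IrrInv φ₁} (h : ξ ≠ ξ') (t : C ⋊[φ₁] A) :
    ∑ c : C, E ξ (inl c * t) * conj (E ξ' (inl c * t)) = 0 := by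
  haveI := sd_finite' φ₁
  refine core_orth_zero inl_injective (sd_normal φ₁) (IsIrrCharacter.isCharacter (hE.irr ξ))
    (IsIrrCharacter.isCharacter (hE.irr ξ')) ?_ t
  simp only [hE.ext]
  exact classInner_irr_of_ne ξ.1.2 ξ'.1.2 (fun h0 => h (Subtype.ext (Subtype.ext h0)))

/-- Class functions on a generating coset are combinations of the extensions. -/
theorem ExtFamily.span (hE : ExtFamily E) {a₁ : A} (hgen : ∀ a, a ∈ Subgroup.zpowers a₁) {f : C ⋊[φ₁] A → ℂ}
    (hf : IsClassFunction _ f) :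
    haveI := sd_finite' φ₁
    ∃ b : IrrInv φ₁ → ℂ, ∀ c : C, f (inl c * inr a₁) = ∑ ξ, b ξ * E ξ (inl c * inr a₁) := by
  classical
  haveI := sd_finite' φ₁
  letI : Fintype (C ⋊[φ₁] A) := Fintype.ofFinite _
  have hΞ : ∀ Ξ : IrrCharacter (C ⋊[φ₁] A), ∃ b : IrrInv φ₁ → ℂ, ∀ c : C,
      (Ξ : C ⋊[φ₁] A → ℂ) (inl c * inr a₁) = ∑ ξ, b ξ * E ξ (inl c * inr a₁) := by
    intro Ξ
    by_cases h0 : ∀ c : C, (Ξ : C ⋊[φ₁] A → ℂ) (inl c * inr a₁) = 0
    · exact ⟨0, fun c => by simp [h0 c]⟩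
    · push Not at h0
      obtain ⟨c₀, hc₀⟩ := h0
      obtain ⟨ξ, l, hl⟩ := sd_structure E hE.irr hE.ext hgen Ξ.2 hc₀
      refine ⟨fun ξ' => if ξ' = ξ then (l a₁ : ℂ) else 0, fun c => ?_⟩
      rw [hl c a₁]
      simp only [ite_mul, zero_mul]
      rw [Finset.sum_ite_eq' Finset.univ ξ, if_pos (Finset.mem_univ _)]
  choose B hB using hΞ
  refine ⟨fun ξ => ∑ Ξ : IrrCharacter (C ⋊[φ₁] A), classInner f (Ξ : C ⋊[φ₁] A → ℂ) * B Ξ ξ, fun c => ?_⟩
  have h1 := congrFun (classFunction_eq_sum f hf) (inl c * inr a₁)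
  simp only [Finset.sum_apply, Pi.smul_apply, smul_eq_mul] at h1
  rw [h1]
  simp only [hB, Finset.mul_sum, Finset.sum_mul]
  rw [Finset.sum_comm]
  refine Finset.sum_congr rfl fun ξ _ => Finset.sum_congr rfl fun Ξ _ => ?_
  ring

/-- Parseval on a coset. -/
theorem ExtFamily.parseval (hE : ExtFamily E) {t : C ⋊[φ₁] A} {f : C → ℂ} {b : IrrInv φ₁ → ℂ}
    (h : ∀ c, f c = ∑ ξ, b ξ * E ξ (inl c * t)) :
    (∀ ξ, (Nat.card C : ℂ)⁻¹ * ∑ c : C, f c * conj (E ξ (inl c * t)) = b ξ) ∧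
      (Nat.card C : ℂ)⁻¹ * ∑ c : C, f c * conj (f c) = ∑ ξ, b ξ * conj (b ξ) := by
  classical
  have hC : (Nat.card C : ℂ) ≠ 0 := by exact_mod_cast Nat.card_pos.ne'
  have h1 : ∀ ξ, (Nat.card C : ℂ)⁻¹ * ∑ c : C, f c * conj (E ξ (inl c * t)) = b ξ := by
    intro ξ
    simp only [h, Finset.sum_mul]
    rw [Finset.sum_comm, Finset.sum_eq_single ξ]
    · simp only [mul_assoc]
      rw [← Finset.mul_sum, hE.orth_self ξ t]
      field_simp
    · intro ξ' _ hne
      simp only [mul_assoc]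
      rw [← Finset.mul_sum, hE.orth_zero hne t, mul_zero]
    · intro h0
      exact absurd (Finset.mem_univ _) h0
  refine ⟨h1, ?_⟩
  have h3 : ∀ c, conj (f c) = ∑ ξ, conj (b ξ) * conj (E ξ (inl c * t)) := by
    intro c
    rw [h c, map_sum]
    simp only [map_mul]
  have h2 : ∑ c : C, f c * conj (f c) = ∑ ξ, conj (b ξ) * ∑ c : C, f c * conj (E ξ (inl c * t)) := by
    simp only [Finset.mul_sum]
    rw [Finset.sum_comm]
    refine Finset.sum_congr rfl fun c _ => ?_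
    rw [h3 c, Finset.mul_sum]
    refine Finset.sum_congr rfl fun ξ _ => ?_
    ring
  rw [h2, Finset.mul_sum]
  refine Finset.sum_congr rfl fun ξ _ => ?_
  have h4 := h1 ξ
  calc (Nat.card C : ℂ)⁻¹ * (conj (b ξ) * ∑ c : C, f c * conj (E ξ (inl c * t)))
      = conj (b ξ) * ((Nat.card C : ℂ)⁻¹ * ∑ c : C, f c * conj (E ξ (inl c * t))) := by ring
    _ = conj (b ξ) * b ξ := by rw [h4]
    _ = _ := by ring

end Family

end Cfsg.Agent.Lib.Coprime
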