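import Mathlib
import Cfsg.Agent.Lib.Coprime.PStep

/-!
# The correspondence for cyclic `p`-groups: the value of an extension on a generating coset
-/

set_option autoImplicit false
set_option linter.style.haveILetI false
set_option linter.unusedSectionVars false
set_option linter.unusedSimpArgs false
set_option linter.unnecessarySimpa false

open scoped ComplexConjugate
open Cfsg Cfsg.Agent.Lib.Char Cfsg.Agent.Lib.Degree

namespace Cfsg.Agent.Lib.Coprime

universe u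

section Value

variable {Y C A : Type u} [Group Y] [Group C] [Group A] [Fintype Y] [Fintype C] [Finite A]
  {φ : A →* MulAut Y} {φ₁ : A →* MulAut C} {j : C →* Y} {Q : Subgroup Y} {p m : ℕ}

open SemidirectProduct

theorem card_filter_not_dvd (hp : p.Prime) :
    ((Finset.range (p * m)).filter (fun u => ¬ p ∣ u)).card = p * m - m := by
  classical
  have himg : (Finset.range (p * m)).filter (fun u => p ∣ u) = (Finset.range m).image (fun u => p * u) := by
    ext u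
    simp only [Finset.mem_filter, Finset.mem_range, Finset.mem_image]
    constructor
    · rintro ⟨h1, w, rfl⟩
      exact ⟨w, lt_of_mul_lt_mul_left h1 (Nat.zero_le _), rfl⟩
    · rintro ⟨w, h1, rfl⟩
      exact ⟨Nat.mul_lt_mul_of_pos_left h1 hp.pos, dvd_mul_right _ _⟩
  have h1 : ((Finset.range (p * m)).filter (fun u => p ∣ u)).card = m := by
    rw [himg, Finset.card_image_of_injective _ (fun a b h => Nat.eq_of_mul_eq_mul_left hp.pos h), Finset.card_range]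
  have h2 := Finset.card_filter_add_card_filter_not (s := Finset.range (p * m)) (fun u => p ∣ u)
  rw [h1, Finset.card_range] at h2
  omega

/-- **The main computation**: an extension on a generating coset is a root of unity times a sign times an extension
of an invariant character of `C`. -/
theorem PData.value (D : PData φ φ₁ j Q p) (hp : p.Prime) {e : ℕ} (hm : m = p ^ e) {a₀ : A}
    (hgen : ∀ a, a ∈ Subgroup.zpowers a₀) (hord : orderOf a₀ = p * m) {E : IrrInv φ₁ → (C ⋊[φ₁] A → ℂ)}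
    (hE : ExtFamily E) {X : Y ⋊[φ] A → ℂ} (hX : IsCharacter _ X)
    (hn : classInner (fun y => X (inl y)) (fun y => X (inl y)) = 1) :
    ∃ (ξ₀ : IrrInv φ₁) (ε : ℤ) (ω : ℂ), (ε = 1 ∨ ε = -1) ∧ ω ≠ 0 ∧
      (∀ c : C, X (inl (j c) * inr a₀) = (ε : ℂ) * ω * E ξ₀ (inl c * inr a₀)) ∧
      (∃ t : ℤ, classInner (fun c => X (inl (j c))) (ξ₀.1 : C → ℂ) = (p : ℂ) * t + ε) ∧
      (∀ ξ, ξ ≠ ξ₀ → ∃ t : ℤ, classInner (fun c => X (inl (j c))) (ξ.1 : C → ℂ) = (p : ℂ) * t) := by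
  classical
  haveI := sd_finite' φ
  haveI := sd_finite' φ₁
  have hm0 : m ≠ 0 := by
    rw [hm]
    exact pow_ne_zero _ hp.ne_zero
  have hpm : p * m ≠ 0 := mul_ne_zero hp.ne_zero hm0
  haveI : NeZero (p * m) := ⟨hpm⟩
  obtain ⟨ζ, hζ⟩ : ∃ ζ : ℂ, IsPrimitiveRoot ζ (p * m) := ⟨_, Complex.isPrimitiveRoot_exp (p * m) hpm⟩
  have hcopu : ∀ u, ¬ p ∣ u → u.Coprime (orderOf a₀) := by
    intro u hu
    rw [hord, hm, ← pow_succ']
    exact Nat.Coprime.pow_right _ ((Nat.Prime.coprime_iff_not_dvd hp).mpr hu).symm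
  have hgenu : ∀ u, ¬ p ∣ u → ∀ a, a ∈ Subgroup.zpowers (a₀ ^ u) := by
    intro u hu a
    obtain ⟨w, hw⟩ := exists_pow_eq_self_of_coprime (hcopu u hu)
    have h1 : a₀ ∈ Subgroup.zpowers (a₀ ^ u) := by
      have h0 := (Subgroup.zpowers (a₀ ^ u)).pow_mem (Subgroup.mem_zpowers (a₀ ^ u)) w
      rwa [hw] at h0
    exact (Subgroup.zpowers_le.mpr h1) (hgen a)
  have hordu : ∀ u, ¬ p ∣ u → orderOf (a₀ ^ u) = p ^ (e + 1) := by
    intro u hu
    rw [(hcopu u hu).symm.orderOf_pow, hord, hm, pow_succ']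
  let X' : C ⋊[φ₁] A → ℂ := X ∘ D.map
  have hX' : IsCharacter _ X' := IsCharacter.comp D.map hX
  have hX'val : ∀ (c : C) (a : A), X' (inl c * inr a) = X (inl (j c) * inr a) := by
    intro c a
    simp [X']
  let G : IrrInv φ₁ → (C ⋊[φ₁] A → ℂ) := fun ξ h =>
    (Nat.card C : ℂ)⁻¹ * ∑ c : C, (X' * fun g => conj (E ξ g)) (inl c * h)
  have hG : ∀ ξ, IsCharacter _ (G ξ) := fun ξ =>
    avg_isCharacter inl_injective (sd_normal φ₁)
      (IsCharacter.mul hX' (IsCharacter.conj_char (IsIrrCharacter.isCharacter (hE.irr ξ))))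
  have hapow : (inr a₀ : C ⋊[φ₁] A) ^ (p * m) = 1 := by
    rw [← map_pow, ← hord, pow_orderOf_eq_one, map_one]
  choose v hv using fun ξ => exists_coeff_of_pow_eq_one hpm (hG ξ) hapow hζ
  let vz : IrrInv φ₁ → Fin (p * m) → ℤ := fun ξ r => (v ξ r : ℤ)
  have hcyc : ∀ ξ k, G ξ ((inr a₀) ^ k) = cycVal ζ (vz ξ) k := by
    intro ξ k
    rw [hv]
    simp [cycVal, vz]
  -- the span at a generator
  have hspan : ∀ u, ¬ p ∣ u → ∀ c : C, X' (inl c * inr (a₀ ^ u)) =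
      ∑ ξ, cycVal ζ (vz ξ) u * E ξ (inl c * inr (a₀ ^ u)) ∧
      ∑ ξ, cycVal ζ (vz ξ) u * conj (cycVal ζ (vz ξ) u) = 1 := by
    intro u hu c
    obtain ⟨b, hb⟩ := hE.span (hgenu u hu) (IsCharacter.isClassFunction hX')
    obtain ⟨h1, h2⟩ := hE.parseval (f := fun c => X' (inl c * inr (a₀ ^ u))) hb
    have h3 : ∀ ξ, cycVal ζ (vz ξ) u = b ξ := by
      intro ξ
      rw [← hcyc, ← h1 ξ, ← map_pow]
      rfl
    simp only [h3]
    refine ⟨hb c, ?_⟩
    rw [← h2]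
    simp only [hX'val]
    exact D.sum_self hp (hgenu u hu) (hordu u hu) hX hn
  -- the quadratic forms
  have hQsum : ∑ ξ, ∑ j' : Fin m, quadForm (blockOf (vz ξ) j') = (p : ℤ) - 1 := by
    have h1 : ∑ ξ, ∑ u ∈ (Finset.range (p * m)).filter (fun u => ¬ p ∣ u),
        cycVal ζ (vz ξ) u * conj (cycVal ζ (vz ξ) u) =
        (m : ℂ) * ((∑ ξ, ∑ j' : Fin m, quadForm (blockOf (vz ξ) j') : ℤ) : ℂ) := by
      simp only [cyc_sum hp hm0 hζ]
      push_cast
      rw [Finset.mul_sum]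
    have h2 : ∑ ξ, ∑ u ∈ (Finset.range (p * m)).filter (fun u => ¬ p ∣ u),
        cycVal ζ (vz ξ) u * conj (cycVal ζ (vz ξ) u) = ((p * m - m : ℕ) : ℂ) := by
      rw [Finset.sum_comm]
      have h3 : ∀ u ∈ (Finset.range (p * m)).filter (fun u => ¬ p ∣ u),
          ∑ ξ, cycVal ζ (vz ξ) u * conj (cycVal ζ (vz ξ) u) = 1 := by
        intro u hu
        exact (hspan u (Finset.mem_filter.mp hu).2 1).2
      rw [Finset.sum_congr rfl h3, Finset.sum_const, card_filter_not_dvd hp]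
      simp
    rw [h2] at h1
    have hle : m ≤ p * m := Nat.le_mul_of_pos_left m hp.pos
    have h3 : (((p * m - m : ℕ) : ℤ) : ℂ) = (((m : ℤ) * ∑ ξ, ∑ j' : Fin m, quadForm (blockOf (vz ξ) j') : ℤ) : ℂ) := by
      push_cast at h1 ⊢
      exact h1
    have h4 : ((p * m - m : ℕ) : ℤ) = (m : ℤ) * ∑ ξ, ∑ j' : Fin m, quadForm (blockOf (vz ξ) j') := by
      exact_mod_cast h3
    have h5 : ((p * m - m : ℕ) : ℤ) = (m : ℤ) * ((p : ℤ) - 1) := by
      rw [Nat.cast_sub hle]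
      push_cast
      ring
    rw [h5] at h4
    have hmz : (m : ℤ) ≠ 0 := by exact_mod_cast hm0
    exact (mul_left_cancel₀ hmz h4).symm
  let w : IrrInv φ₁ × Fin m → Fin p → ℤ := fun x => blockOf (vz x.1) x.2
  have hwsum : ∑ x, quadForm (w x) = (p : ℤ) - 1 := by
    rw [Fintype.sum_prod_type]
    exact hQsum
  obtain ⟨⟨ξ₀, j₀⟩, t, ε, i₀, hε, hw₀, hoth⟩ := unique_nonconst hp.two_le w hwsum
  have hw₀' : ∀ i, blockOf (vz ξ₀) j₀ i = t + if i = i₀ then ε else 0 := hw₀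
  have hoth₀ : ∀ j', j' ≠ j₀ → ∀ i i', blockOf (vz ξ₀) j' i = blockOf (vz ξ₀) j' i' := by
    intro j' hj' i i'
    exact hoth (ξ₀, j') (fun h => hj' (congrArg Prod.snd h)) i i'
  have hothξ : ∀ ξ, ξ ≠ ξ₀ → ∀ j' i i', blockOf (vz ξ) j' i = blockOf (vz ξ) j' i' := by
    intro ξ hξ j' i i'
    exact hoth (ξ, j') (fun h => hξ (congrArg Prod.fst h)) i i'
  have hval₀ : ∀ u, ¬ p ∣ u → cycVal ζ (vz ξ₀) u = (ε : ℂ) * ζ ^ (((j₀ : ℕ) + m * (i₀ : ℕ)) * u) := fun u hu =>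
    cycVal_of_one hp hm0 hζ hw₀' hoth₀ hu
  have hvalξ : ∀ ξ, ξ ≠ ξ₀ → ∀ u, ¬ p ∣ u → cycVal ζ (vz ξ) u = 0 := fun ξ hξ u hu =>
    cycVal_of_const hp hm0 hζ (hothξ ξ hξ) hu
  have hone : ¬ p ∣ 1 := fun h => hp.one_lt.ne' (Nat.dvd_one.mp h)
  refine ⟨ξ₀, ε, ζ ^ (((j₀ : ℕ) + m * (i₀ : ℕ)) * 1), hε, pow_ne_zero _ (hζ.ne_zero hpm), ?_, ?_, ?_⟩
  · intro c
    have h1 := (hspan 1 hone c).1
    rw [pow_one, hX'val, Finset.sum_eq_single ξ₀, hval₀ 1 hone] at h1
    · exact h1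
    · intro ξ _ hξ
      rw [hvalξ ξ hξ 1 hone, zero_mul]
    · intro h0
      exact absurd (Finset.mem_univ _) h0
  · -- multiplicity at the distinguished character
    have h1 : classInner (fun c => X (inl (j c))) (ξ₀.1 : C → ℂ) = G ξ₀ ((inr a₀) ^ 0) := by
      simp only [pow_zero, G, classInner_def, mul_one, Pi.mul_apply, hE.ext, X', Function.comp, PData.map_inl]
    obtain ⟨t', ht'⟩ := sum_of_one (m := m) hp hw₀' hoth₀
    refine ⟨t', ?_⟩
    rw [h1, hcyc]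
    simp only [cycVal, mul_zero, pow_zero, mul_one]
    have h2 : ((∑ r, vz ξ₀ r : ℤ) : ℂ) = (((p : ℤ) * t' + ε : ℤ) : ℂ) := by rw [ht']
    push_cast at h2
    exact h2
  · intro ξ hξ
    have h1 : classInner (fun c => X (inl (j c))) (ξ.1 : C → ℂ) = G ξ ((inr a₀) ^ 0) := by
      simp only [pow_zero, G, classInner_def, mul_one, Pi.mul_apply, hE.ext, X', Function.comp, PData.map_inl]
    obtain ⟨t', ht'⟩ := sum_of_const (m := m) hp (hothξ ξ hξ)
    refine ⟨t', ?_⟩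
    rw [h1, hcyc]
    simp only [cycVal, mul_zero, pow_zero, mul_one]
    have h2 : ((∑ r, vz ξ r : ℤ) : ℂ) = (((p : ℤ) * t' : ℤ) : ℂ) := by rw [ht']
    push_cast at h2
    exact h2

end Value

end Cfsg.Agent.Lib.Coprime
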