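import Mathlib
import Cfsg.Agent.Lib.Coprime.PValue
import Cfsg.Agent.Lib.Coprime.PFixed

/-!
# The correspondence for cyclic `p`-groups acting on groups with `p'`-quotient
-/

set_option autoImplicit false
set_option linter.style.haveILetI false
set_option linter.unusedSectionVars false
set_option linter.unusedSimpArgs false
set_option linter.unnecessarySimpa false

open scoped ComplexConjugate
open Cfsg Cfsg.Agent.Lib.Char Cfsg.Agent.Lib.Degree

namespace Cfsg.Agent.Lib.Coprime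

universe u

section Corr

variable {Y C A : Type u} [Group Y] [Group C] [Group A] [Fintype C]
  {φ : A →* MulAut Y} {φ₁ : A →* MulAut C} {j : C →* Y} {Q : Subgroup Y} {p m : ℕ}

/-- `ξ` is the invariant character of `C` attached to `χ`: it has multiplicity `± 1` modulo `p` in the restriction of
`χ` and all the other invariant characters have multiplicity divisible by `p`. -/
def IsPCorr (p : ℕ) (j : C →* Y) (φ₁ : A →* MulAut C) (χ : Y → ℂ) (ξ : IrrInv φ₁) : Prop :=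
  ∀ ξ' : IrrInv φ₁, ∃ m : ℕ, classInner (fun c => χ (j c)) (ξ'.1 : C → ℂ) = (m : ℂ) ∧
    (ξ' = ξ → ((m : ZMod p) = 1 ∨ (m : ZMod p) = -1)) ∧ (ξ' ≠ ξ → p ∣ m)

theorem IsPCorr.unique (hp : p.Prime) {χ : Y → ℂ} {ξ₁ ξ₂ : IrrInv φ₁} (h₁ : IsPCorr p j φ₁ χ ξ₁)
    (h₂ : IsPCorr p j φ₁ χ ξ₂) : ξ₁ = ξ₂ := by
  haveI : Fact p.Prime := ⟨hp⟩
  by_contra hne
  obtain ⟨m, hm, h1, -⟩ := h₁ ξ₁
  obtain ⟨m', hm', -, h2⟩ := h₂ ξ₁
  have h3 : m = m' := by
    have : (m : ℂ) = m' := by rw [← hm, hm']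
    exact_mod_cast this
  subst h3
  have h4 : (m : ZMod p) = 0 := (ZMod.natCast_eq_zero_iff m p).mpr (h2 hne)
  rcases h1 rfl with h5 | h5
  · rw [h4] at h5
    exact zero_ne_one h5
  · rw [h4] at h5
    have h6 : (1 : ZMod p) = 0 := by
      have := congrArg Neg.neg h5
      simpa using this.symm
    exact one_ne_zero h6

/-- From the integer forms to the modular form. -/
theorem isPCorr_of_value [Finite Y] {χ : Y → ℂ} (hχ : IsCharacter Y χ) (hp : p.Prime) {ξ₀ : IrrInv φ₁} {ε : ℤ} (hε : ε = 1 ∨ ε = -1)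
    (h₀ : ∃ t : ℤ, classInner (fun c => χ (j c)) (ξ₀.1 : C → ℂ) = (p : ℂ) * t + ε)
    (h₁ : ∀ ξ, ξ ≠ ξ₀ → ∃ t : ℤ, classInner (fun c => χ (j c)) (ξ.1 : C → ℂ) = (p : ℂ) * t) :
    IsPCorr p j φ₁ χ ξ₀ := by
  haveI : Fact p.Prime := ⟨hp⟩
  intro ξ
  have hres : IsCharacter C (fun c => χ (j c)) := IsCharacter.comp j hχ
  obtain ⟨m, hm⟩ := classInner_isCharacter_nat hres (IsIrrCharacter.isCharacter ξ.1.2)
  refine ⟨m, hm, ?_, ?_⟩
  · rintro rfl
    obtain ⟨t, ht⟩ := h₀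
    rw [hm] at ht
    have h1 : (m : ℤ) = p * t + ε := by exact_mod_cast ht
    have h2 : ((m : ℤ) : ZMod p) = ((p * t + ε : ℤ) : ZMod p) := by rw [h1]
    push_cast at h2
    rw [ZMod.natCast_self, zero_mul, zero_add] at h2
    rcases hε with rfl | rfl
    · left
      simpa using h2
    · right
      simpa using h2
  · intro hne
    obtain ⟨t, ht⟩ := h₁ ξ hne
    rw [hm] at ht
    have h1 : (m : ℤ) = p * t := by exact_mod_cast ht
    have h2 : (p : ℤ) ∣ m := ⟨t, h1⟩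
    exact_mod_cast h2

variable [Fintype Y] [Finite A]

open SemidirectProduct

theorem PData.map_injective (D : PData φ φ₁ j Q p) : Function.Injective D.map := by
  intro a b h
  have h1 : (D.map a).left = (D.map b).left := by rw [h]
  have h2 : (D.map a).right = (D.map b).right := by rw [h]
  apply SemidirectProduct.ext
  · exact D.j_inj h1
  · exact h2

/-- Conjugators in the whole semidirect product. -/
theorem PData.fusion' (D : PData φ φ₁ j Q p) (hp : p.Prime) {a₁ : A} (hgen : ∀ a, a ∈ Subgroup.zpowers a₁)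
    {k : ℕ} (hord : orderOf a₁ = p ^ k) {x : Y ⋊[φ] A} {c c' : C}
    (h : x⁻¹ * (inl (j c) * inr a₁) * x = inl (j c') * inr a₁) : ∃ g : C ⋊[φ₁] A, D.map g = x := by
  haveI hcA : IsCyclic A := ⟨⟨a₁, hgen⟩⟩
  have hcommA : ∀ a b : A, a * b = b * a := fun a b => IsMulCommutative.is_comm.comm a b
  set y := x.left with hy
  set a := x.right with ha
  have hx : x = inl y * inr a := (inl_left_mul_inr_right x).symm
  have h1 : (inl y⁻¹ : Y ⋊[φ] A) * (inl (j c) * inr a₁) * (inl y⁻¹)⁻¹ = inl (j (φ₁ a c')) * inr a₁ := by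
    have h2 : (inl (j (φ₁ a c')) : Y ⋊[φ] A) = inr a * inl (j c') * (inr a)⁻¹ := by
      rw [D.compat, inl_aut, map_inv]
    have h3 : (inr a₁ : Y ⋊[φ] A) = inr a * inr a₁ * (inr a)⁻¹ := by
      rw [← map_mul, hcommA a a₁, map_mul]
      group
    rw [h2]
    calc (inl y⁻¹ : Y ⋊[φ] A) * (inl (j c) * inr a₁) * (inl y⁻¹)⁻¹
        = inr a * (x⁻¹ * (inl (j c) * inr a₁) * x) * (inr a)⁻¹ := by
          rw [hx, map_inv]
          group
      _ = inr a * (inl (j c') * inr a₁) * (inr a)⁻¹ := by rw [h]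
      _ = inr a * inl (j c') * (inr a)⁻¹ * (inr a * inr a₁ * (inr a)⁻¹) := by group
      _ = _ := by rw [← h3]
  obtain ⟨d, hd⟩ := D.fusion hp hgen hord h1
  have hd' : j d⁻¹ = y := by
    rw [map_inv, hd, inv_inv]
  refine ⟨inl d⁻¹ * inr a, ?_⟩
  rw [map_mul, PData.map_inl, PData.map_inr, hd', hx]

/-- Every invariant character of `C` occurs on the coset in an irreducible character of the big group. -/
theorem PData.exists_over (D : PData φ φ₁ j Q p) (hp : p.Prime) {a₀ : A} (hgen : ∀ a, a ∈ Subgroup.zpowers a₀)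
    {k : ℕ} (hord : orderOf a₀ = p ^ k) {E : IrrInv φ₁ → (C ⋊[φ₁] A → ℂ)} (hE : ExtFamily E) (ξ : IrrInv φ₁) :
    ∃ X : Y ⋊[φ] A → ℂ, IsIrrCharacter _ X ∧
      ∑ c : C, E ξ (inl c * inr a₀) * conj (X (inl (j c) * inr a₀)) ≠ 0 := by
  classical
  haveI := sd_finite' φ
  haveI := sd_finite' φ₁
  letI : Fintype (Y ⋊[φ] A) := Fintype.ofFinite _
  let s : Y ⋊[φ] A := inr a₀
  let t : C ⋊[φ₁] A := inr a₀
  let T : Y ⋊[φ] A → ℂ := fun g => ∑ c : C, if g = inl (j c) * s then E ξ (inl c * t) else 0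
  have hinjc : ∀ c c' : C, (inl (j c) * s : Y ⋊[φ] A) = inl (j c') * s → c = c' := by
    intro c c' h
    exact D.j_inj (inl_injective (mul_right_cancel h))
  have hTval : ∀ c, T (inl (j c) * s) = E ξ (inl c * t) := by
    intro c
    simp only [T]
    rw [Finset.sum_eq_single c]
    · rw [if_pos rfl]
    · intro c' _ hne
      rw [if_neg (fun h => hne (hinjc c c' h).symm)]
    · intro h0
      exact absurd (Finset.mem_univ _) h0
  have hT0 : ∀ g, (∀ c, g ≠ inl (j c) * s) → T g = 0 := by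
    intro g hg
    exact Finset.sum_eq_zero fun c _ => if_neg (hg c)
  let F : Y ⋊[φ] A → ℂ := fun g => ∑ x : Y ⋊[φ] A, T (x⁻¹ * g * x)
  have hFcl : IsClassFunction _ F := by
    intro g h
    simp only [F]
    rw [← Equiv.sum_comp (Equiv.mulLeft h)]
    refine Finset.sum_congr rfl fun x _ => ?_
    congr 1
    simp only [Equiv.coe_mulLeft]
    group
  obtain ⟨c₀, hc₀⟩ : ∃ c₀, E ξ (inl c₀ * t) ≠ 0 := by
    by_contra hcon
    push Not at hcon
    have h1 := hE.orth_self ξ t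
    simp only [hcon, zero_mul, Finset.sum_const_zero] at h1
    exact (by exact_mod_cast Nat.card_pos.ne' : (Nat.card C : ℂ) ≠ 0) h1.symm
  have hEcl := IsCharacter.isClassFunction (IsIrrCharacter.isCharacter (hE.irr ξ))
  have hterm : ∀ x : Y ⋊[φ] A, T (x⁻¹ * (inl (j c₀) * s) * x) =
      if ∃ c, x⁻¹ * (inl (j c₀) * s) * x = inl (j c) * s then E ξ (inl c₀ * t) else 0 := by
    intro x
    by_cases hP : ∃ c, x⁻¹ * (inl (j c₀) * s) * x = inl (j c) * s
    · rw [if_pos hP]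
      obtain ⟨c, hc⟩ := hP
      rw [hc, hTval]
      obtain ⟨g, hg⟩ := D.fusion' hp hgen hord hc
      have h1 : D.map (g⁻¹ * (inl c₀ * t) * g) = D.map (inl c * t) := by
        simp only [map_mul, map_inv, hg, PData.map_inl]
        simpa [t, s] using hc
      have h2 := D.map_injective h1
      rw [← h2]
      have h3 := hEcl (inl c₀ * t) g⁻¹
      rw [inv_inv] at h3
      exact h3
    · rw [if_neg hP]
      push Not at hP
      exact hT0 _ hP
  have hFne : F (inl (j c₀) * s) ≠ 0 := by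
    simp only [F, hterm]
    rw [Finset.sum_ite, Finset.sum_const_zero, add_zero, Finset.sum_const, nsmul_eq_mul]
    refine mul_ne_zero ?_ hc₀
    have h1 : (Finset.univ.filter fun x : Y ⋊[φ] A =>
        ∃ c, x⁻¹ * (inl (j c₀) * s) * x = inl (j c) * s).Nonempty :=
      ⟨1, Finset.mem_filter.mpr ⟨Finset.mem_univ _, c₀, by simp⟩⟩
    exact_mod_cast (Finset.card_pos.mpr h1).ne'
  have hex : ∃ X, IsIrrCharacter (Y ⋊[φ] A) X ∧ classInner F X ≠ 0 := by
    by_contra hcon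
    push Not at hcon
    have h1 := classFunction_eq_zero_of_orthogonal F hFcl hcon
    exact hFne (congrFun h1 _)
  obtain ⟨X, hX, hFX⟩ := hex
  refine ⟨X, hX, ?_⟩
  have hXcl := IsCharacter.isClassFunction (IsIrrCharacter.isCharacter hX)
  have hinner : classInner F X = ∑ c : C, E ξ (inl c * t) * conj (X (inl (j c) * s)) := by
    rw [classInner_def]
    have h1 : ∑ g, F g * conj (X g) = (Nat.card (Y ⋊[φ] A) : ℂ) * ∑ g, T g * conj (X g) := by
      simp only [F, Finset.sum_mul]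
      rw [Finset.sum_comm, Nat.card_eq_fintype_card, ← nsmul_eq_mul, ← Finset.card_univ, ← Finset.sum_const]
      refine Finset.sum_congr rfl fun x _ => ?_
      rw [← Equiv.sum_comp (MulAut.conj x).toEquiv]
      refine Finset.sum_congr rfl fun g _ => ?_
      simp only [MulEquiv.toEquiv_eq_coe, EquivLike.coe_coe, MulAut.conj_apply]
      have h2 : x⁻¹ * (x * g * x⁻¹) * x = g := by group
      rw [h2, hXcl]
    have h2 : ∑ g, T g * conj (X g) = ∑ c : C, E ξ (inl c * t) * conj (X (inl (j c) * s)) := by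
      simp only [T, Finset.sum_mul]
      rw [Finset.sum_comm]
      refine Finset.sum_congr rfl fun c _ => ?_
      rw [Finset.sum_eq_single (inl (j c) * s)]
      · rw [if_pos rfl]
      · intro g _ hg
        rw [if_neg hg, zero_mul]
      · intro h0
        exact absurd (Finset.mem_univ _) h0
    rw [h1, h2, ← mul_assoc, inv_mul_cancel₀, one_mul]
    exact_mod_cast Nat.card_pos.ne'
  rw [← hinner]
  exact hFX

/-- The degree congruence. -/
theorem IsPCorr.degree (D : PData φ φ₁ j Q p) (hp : p.Prime) (hA : IsPGroup p A) (χ : IrrInv φ) {ξ : IrrInv φ₁}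
    (h : IsPCorr p j φ₁ (χ.1 : Y → ℂ) ξ) :
    (charDegree (ξ.1 : C → ℂ) : ZMod p) = (charDegree (χ.1 : Y → ℂ) : ZMod p) ∨
      (charDegree (ξ.1 : C → ℂ) : ZMod p) = -(charDegree (χ.1 : Y → ℂ) : ZMod p) := by
  classical
  haveI : Fact p.Prime := ⟨hp⟩
  let π := irrPerm φ₁
  have hres : IsCharacter C (fun c => (χ.1 : Y → ℂ) (j c)) := IsCharacter.comp j (IsIrrCharacter.isCharacter χ.1.2)
  choose mm hmm using fun ξ' : IrrCharacter C => classInner_isCharacter_nat hres (IsIrrCharacter.isCharacter ξ'.2)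
  have hdeg : ∀ ξ' : IrrCharacter C, ((ξ' : C → ℂ) 1) = charDegree (ξ' : C → ℂ) := fun ξ' =>
    map_one_eq_charDegree (IsIrrCharacter.isCharacter ξ'.2)
  have hinvm : ∀ (a : A) (ξ' : IrrCharacter C), mm (π a ξ') = mm ξ' := by
    intro a ξ'
    have h1 : classInner (fun c => (χ.1 : Y → ℂ) (j c)) ((π a ξ' : IrrCharacter C) : C → ℂ) =
        classInner (fun c => (χ.1 : Y → ℂ) (j c)) (ξ' : C → ℂ) := by
      have h2 : (fun c => (χ.1 : Y → ℂ) (j c)) = fun c => (χ.1 : Y → ℂ) (j (φ₁ a⁻¹ c)) := by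
        funext c
        rw [D.compat]
        exact (χ.2 a⁻¹ (j c)).symm
      rw [h2]
      show classInner ((fun c => (χ.1 : Y → ℂ) (j c)) ∘ (φ₁ a⁻¹ : C ≃* C))
        ((ξ' : C → ℂ) ∘ (φ₁ a⁻¹ : C ≃* C)) = _
      rw [classInner_comp_equiv]
      rw [← h2]
    rw [hmm, hmm] at h1
    exact_mod_cast h1
  let w : IrrCharacter C → ℕ := fun ξ' => mm ξ' * charDegree (ξ' : C → ℂ)
  have hw : ∀ (a : A) (ξ' : IrrCharacter C), w (π a ξ') = w ξ' := by
    intro a ξ'
    simp only [w]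
    rw [hinvm]
    congr 1
    have h1 : ((π a ξ' : IrrCharacter C) : C → ℂ) 1 = (ξ' : C → ℂ) 1 := by
      show (ξ' : C → ℂ) (φ₁ a⁻¹ 1) = _
      rw [map_one]
    rw [hdeg, hdeg] at h1
    exact_mod_cast h1
  have hsum : charDegree (χ.1 : Y → ℂ) = ∑ ξ', w ξ' := by
    have h1 := congrFun (classFunction_eq_sum _ (IsCharacter.isClassFunction hres)) 1
    simp only [Finset.sum_apply, Pi.smul_apply, smul_eq_mul, hmm, hdeg, map_one] at h1
    rw [map_one_eq_charDegree (IsIrrCharacter.isCharacter χ.1.2)] at h1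
    simp only [w]
    exact_mod_cast h1
  have hmod := sum_modEq_sum_fixed hA π w hw
  rw [← hsum] at hmod
  have hmod' := (ZMod.natCast_eq_natCast_iff _ _ p).mpr hmod
  rw [Nat.cast_sum] at hmod'
  obtain ⟨m₀, hm₀, hm₀1, -⟩ := h ξ
  have hξfix : ∀ x, π x ξ.1 = ξ.1 := (irrPerm_eq_iff φ₁ ξ.1).mpr ξ.2
  have hmm₀ : mm ξ.1 = m₀ := by
    have h1 := hmm ξ.1
    rw [hm₀] at h1
    exact_mod_cast h1.symm
  have hval : (charDegree (χ.1 : Y → ℂ) : ZMod p) = (m₀ : ZMod p) * (charDegree (ξ.1 : C → ℂ) : ZMod p) := by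
    rw [hmod', Finset.sum_eq_single (⟨ξ.1, hξfix⟩ : {a // ∀ x, π x a = a})]
    · simp only [w]
      rw [hmm₀]
      push_cast
      rfl
    · intro ξ' _ hne
      have hinv' : IsInv φ₁ ((ξ'.1 : IrrCharacter C) : C → ℂ) := (irrPerm_eq_iff φ₁ ξ'.1).mp ξ'.2
      obtain ⟨m', hm', -, hm'2⟩ := h ⟨ξ'.1, hinv'⟩
      have hne' : (⟨ξ'.1, hinv'⟩ : IrrInv φ₁) ≠ ξ := by
        intro h0
        have h2 : ξ'.1 = ξ.1 := congrArg (fun z : IrrInv φ₁ => z.1) h0
        exact hne (Subtype.ext h2)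
      have h1 : mm ξ'.1 = m' := by
        have h2 := hmm ξ'.1
        rw [hm'] at h2
        exact_mod_cast h2.symm
      simp only [w]
      rw [h1]
      push_cast
      rw [(ZMod.natCast_eq_zero_iff m' p).mpr (hm'2 hne'), zero_mul]
    · intro h0
      exact absurd (Finset.mem_univ _) h0
  rcases hm₀1 rfl with h1 | h1
  · left
    rw [hval, h1, one_mul]
  · right
    rw [hval, h1]
    ring

/-- **The correspondence for a cyclic `p`-group.** -/
theorem PData.corr (D : PData φ φ₁ j Q p) (hp : p.Prime) {e : ℕ} (hm : m = p ^ e) {a₀ : A}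
    (hgen : ∀ a, a ∈ Subgroup.zpowers a₀) (hord : orderOf a₀ = p * m) :
    ∃ f : IrrInv φ → IrrInv φ₁, Function.Bijective f ∧ ∀ χ, IsPCorr p j φ₁ (χ.1 : Y → ℂ) (f χ) := by
  classical
  haveI hcA : IsCyclic A := ⟨⟨a₀, hgen⟩⟩
  haveI := sd_finite' φ
  haveI := sd_finite' φ₁
  obtain ⟨E, hE⟩ := exists_extFamily φ₁
  have hordk : orderOf a₀ = p ^ (e + 1) := by rw [hord, hm, pow_succ']
  have hvalue : ∀ χ : IrrInv φ, ∃ (X : Y ⋊[φ] A → ℂ) (ξ₀ : IrrInv φ₁) (ε : ℤ) (ω : ℂ), IsIrrCharacter _ X ∧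
      (∀ y, X (inl y) = (χ.1 : Y → ℂ) y) ∧ (ε = 1 ∨ ε = -1) ∧ ω ≠ 0 ∧
      (∀ c : C, X (inl (j c) * inr a₀) = (ε : ℂ) * ω * E ξ₀ (inl c * inr a₀)) ∧
      IsPCorr p j φ₁ (χ.1 : Y → ℂ) ξ₀ := by
    intro χ
    obtain ⟨X, hX, hXy⟩ := exists_ext_sd φ χ.1.2 χ.2
    have hXr : (fun y => X (inl y)) = (χ.1 : Y → ℂ) := funext hXy
    have hn : classInner (fun y => X (inl y)) (fun y => X (inl y)) = 1 := by
      rw [hXr]
      exact classInner_irr_self χ.1.2
    obtain ⟨ξ₀, ε, ω, hε, hω, hv, h₀, h₁⟩ := D.value hp hm hgen hord hE (IsIrrCharacter.isCharacter hX) hn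
    simp only [hXy] at h₀ h₁
    exact ⟨X, ξ₀, ε, ω, hX, hXy, hε, hω, hv, isPCorr_of_value (IsIrrCharacter.isCharacter χ.1.2) hp hε h₀ h₁⟩
  choose X₀ f ε₀ ω₀ hX₀ hXy₀ hε₀ hω₀ hv₀ hf₀ using hvalue
  refine ⟨f, ⟨?_, ?_⟩, hf₀⟩
  · -- injective
    intro χ χ' hff
    by_contra hne
    have hne' : (χ.1 : Y → ℂ) ≠ χ'.1 := fun h => hne (Subtype.ext (Subtype.ext h))
    have h0 : classInner (fun y => X₀ χ (inl y)) (fun y => X₀ χ' (inl y)) = 0 := by
      rw [show (fun y => X₀ χ (inl y)) = (χ.1 : Y → ℂ) from funext (hXy₀ χ),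
        show (fun y => X₀ χ' (inl y)) = (χ'.1 : Y → ℂ) from funext (hXy₀ χ')]
      exact classInner_irr_of_ne χ.1.2 χ'.1.2 hne'
    have h1 := D.sum_zero hp hgen hordk (IsIrrCharacter.isCharacter (hX₀ χ)) (IsIrrCharacter.isCharacter (hX₀ χ')) h0
    simp only [hv₀] at h1
    have h2 : ∑ c : C, (ε₀ χ : ℂ) * ω₀ χ * E (f χ) (inl c * inr a₀) * conj ((ε₀ χ' : ℂ) * ω₀ χ' * E (f χ') (inl c * inr a₀)) =
        ((ε₀ χ : ℂ) * ω₀ χ * conj ((ε₀ χ' : ℂ) * ω₀ χ')) * ∑ c : C, E (f χ) (inl c * inr a₀) * conj (E (f χ') (inl c * inr a₀)) := by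
      rw [Finset.mul_sum]
      refine Finset.sum_congr rfl fun c _ => ?_
      rw [map_mul]
      ring
    rw [h2, hff, hE.orth_self] at h1
    have hne1 : (Nat.card C : ℂ) ≠ 0 := by exact_mod_cast Nat.card_pos.ne'
    have hεne : ∀ χ, (ε₀ χ : ℂ) ≠ 0 := by
      intro χ
      rcases hε₀ χ with h | h <;> simp [h]
    refine (mul_ne_zero (mul_ne_zero (mul_ne_zero (hεne χ) (hω₀ χ)) ?_) hne1) h1
    rw [Ne, map_eq_zero]
    exact mul_ne_zero (hεne χ') (hω₀ χ')
  · -- surjective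
    intro ξ
    obtain ⟨X, hX, hne⟩ := D.exists_over hp hgen hordk hE ξ
    obtain ⟨c₁, hc₁⟩ : ∃ c₁ : C, X (inl (j c₁) * inr a₀) ≠ 0 := by
      by_contra hcon
      push Not at hcon
      apply hne
      simp [hcon]
    have hirr := sd_irr_of_ne_zero hgen hX hc₁
    have hinv : IsInv φ (fun y => X (inl y)) := by
      intro a y
      simp only
      rw [inl_aut, map_inv, IsCharacter.isClassFunction (IsIrrCharacter.isCharacter hX)]
    let χ₁ : IrrInv φ := ⟨⟨_, hirr⟩, hinv⟩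
    obtain ⟨ξ₀, ε, ω, hε, hω, hv, h₀, h₁⟩ := D.value hp hm hgen hord hE (IsIrrCharacter.isCharacter hX)
      (classInner_irr_self hirr)
    have hcorr : IsPCorr p j φ₁ (χ₁.1 : Y → ℂ) ξ₀ :=
      isPCorr_of_value (IsIrrCharacter.isCharacter hirr) hp hε h₀ h₁
    have heq : ξ₀ = ξ := by
      by_contra hξ
      apply hne
      simp only [hv]
      have h2 : ∑ c : C, E ξ (inl c * inr a₀) * conj ((ε : ℂ) * ω * E ξ₀ (inl c * inr a₀)) =
          conj ((ε : ℂ) * ω) * ∑ c : C, E ξ (inl c * inr a₀) * conj (E ξ₀ (inl c * inr a₀)) := by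
        rw [Finset.mul_sum]
        refine Finset.sum_congr rfl fun c _ => ?_
        rw [map_mul]
        ring
      rw [h2, hE.orth_zero (fun h => hξ h.symm), mul_zero]
    refine ⟨χ₁, ?_⟩
    rw [← heq]
    exact (hf₀ χ₁).unique hp hcorr

end Corr

end Cfsg.Agent.Lib.Coprime
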