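import Mathlib
import Cfsg.Agent.S0175
import Cfsg.Agent.S0176

/-!
# The inductive step of Taketa's theorem

For a monomial group: if all irreducible characters of degree below `f` contain `D` in their
kernels, with `D = G^(k)`, then all irreducible characters of degree at most `f` contain `G^(k+1)`
in their kernels.
-/

set_option autoImplicit false
set_option linter.style.haveILetI false
set_option linter.unusedSectionVars false
set_option linter.unusedVariables false

open Cfsg

namespace Cfsg.Agent.Lib.Coprime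

open Cfsg.Agent.S0175 (mem_of_ind_one_eq)

/-- The inductive step of Taketa's theorem. -/
theorem taketa_step {G : Type*} [Group G] [Fintype G]
    (hM : ∀ χ : G → ℂ, Cfsg.IsIrrCharacter G χ →
      ∃ (H : Subgroup G) (lam : H →* ℂˣ), χ = Cfsg.indFun H (fun h => (lam h : ℂ)))
    (d f : ℕ) (ih : ∀ ξ : G → ℂ, Cfsg.IsIrrCharacter G ξ → Cfsg.charDegree ξ < f →
      ∀ g ∈ derivedSeries G d, ξ g = ξ 1) :
    ∀ χ : G → ℂ, Cfsg.IsIrrCharacter G χ → Cfsg.charDegree χ ≤ f →
      ∀ g ∈ derivedSeries G (d + 1), χ g = χ 1 := by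
  classical
  intro χ hχ hdeg g hg
  by_cases hle : Cfsg.charDegree χ < f
  · refine ih χ hχ hle g ?_
    rw [derivedSeries_succ] at hg
    exact Subgroup.commutator_le_self _ hg
  have hdeg' : Cfsg.charDegree χ = f := by omega
  obtain ⟨H, lam, rfl⟩ := hM χ hχ
  have hone : (fun _ : H => (1 : ℂ)) = fun _ : H => (1 : ℂ) := rfl
  have hψchar : Cfsg.IsCharacter G (Cfsg.indFun H (fun _ => (1 : ℂ))) :=
    Cfsg.Agent.Lib.Char.indFun_isCharacter H Cfsg.Agent.Lib.Char.IsCharacter.one
  have hψ1 : Cfsg.charDegree (Cfsg.indFun H (fun _ => (1 : ℂ))) = f := by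
    rw [← hdeg']
    simp [Cfsg.charDegree, Cfsg.Agent.Lib.Char.indFun_one]
  have hcl := Cfsg.Agent.Lib.Char.IsCharacter.isClassFunction hψchar
  set ψ := Cfsg.indFun H (fun _ => (1 : ℂ)) with hψdef
  let one : Cfsg.IrrCharacter G := ⟨fun _ => 1, Cfsg.Agent.Lib.Char.isIrrCharacter_one⟩
  have hψone : Cfsg.classInner ψ (fun _ => 1) = 1 := by
    rw [hψdef, Cfsg.Agent.Lib.Char.frobenius_reciprocity _ _ _
      (Cfsg.Agent.Lib.Char.IsCharacter.isClassFunction Cfsg.Agent.Lib.Char.IsCharacter.one)]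
    exact Cfsg.Agent.Lib.Char.classInner_irr_self Cfsg.Agent.Lib.Char.isIrrCharacter_one
  have hNker : ∀ n ∈ derivedSeries G d, ψ n = ψ 1 := by
    intro n hn
    have hφ : ∀ φ : Cfsg.IrrCharacter G, Cfsg.classInner ψ (φ : G → ℂ) ≠ 0 →
        (φ : G → ℂ) n = (φ : G → ℂ) 1 := by
      intro φ hφ
      by_cases hφ1 : φ = one
      · rw [hφ1]
      · refine ih φ φ.2 ?_ n hn
        have hsub := Cfsg.Agent.Lib.Char.isCharacter_sub_of_constituent hψchar φ.2 hφ
        have h2 : Cfsg.classInner (ψ - (φ : G → ℂ)) (fun _ => 1) ≠ 0 := by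
          rw [Cfsg.Agent.Lib.Char.classInner_sub_left, hψone,
            Cfsg.Agent.Lib.Char.classInner_irr_of_ne φ.2 Cfsg.Agent.Lib.Char.isIrrCharacter_one
              (fun h => hφ1 (Subtype.ext h))]
          simp
        have h3 := Cfsg.Agent.Lib.Char.charDegree_le_of_constituent hsub
          Cfsg.Agent.Lib.Char.isIrrCharacter_one h2
        have h4 := Cfsg.Agent.Lib.Char.charDegree_add hsub
          (Cfsg.Agent.Lib.Char.IsIrrCharacter.isCharacter φ.2)
        rw [sub_add_cancel, hψ1] at h4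
        have h5 : Cfsg.charDegree (fun _ : G => (1 : ℂ)) = 1 := by
          simp [Cfsg.charDegree]
        omega
    have hs := Cfsg.Agent.Lib.Char.classFunction_eq_sum ψ hcl
    have h1 : ∀ y, ψ y = ∑ φ : Cfsg.IrrCharacter G,
        Cfsg.classInner ψ (φ : G → ℂ) * (φ : G → ℂ) y := by
      intro y
      conv_lhs => rw [hs]
      simp [Finset.sum_apply]
    rw [h1 n, h1 1]
    refine Finset.sum_congr rfl fun φ _ => ?_
    by_cases h0 : Cfsg.classInner ψ (φ : G → ℂ) = 0
    · simp [h0]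
    · rw [hφ φ h0]
  have hNH : derivedSeries G d ≤ H := fun n hn => mem_of_ind_one_eq H n (hNker n hn)
  have hcomm : derivedSeries G (d + 1) ≤ (lam.ker).map H.subtype := by
    rw [derivedSeries_succ, Subgroup.commutator_le]
    intro a ha b hb
    refine ⟨(⟨a, hNH ha⟩ : H) * ⟨b, hNH hb⟩ * (⟨a, hNH ha⟩ : H)⁻¹ * (⟨b, hNH hb⟩ : H)⁻¹, ?_, rfl⟩
    simp only [SetLike.mem_coe, MonoidHom.mem_ker]
    rw [map_mul, map_mul, map_mul, map_inv, map_inv]
    simp [mul_comm]
  have hnorm : (derivedSeries G (d + 1)).Normal := derivedSeries_normal _ _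
  rw [Cfsg.Agent.Lib.Char.indFun_apply, Cfsg.Agent.Lib.Char.indFun_apply]
  congr 1
  refine Finset.sum_congr rfl fun x _ => ?_
  have hm : x⁻¹ * g * x ∈ derivedSeries G (d + 1) := by
    have := hnorm.conj_mem g hg x⁻¹
    simpa using this
  obtain ⟨y, hy, hyg⟩ := hcomm hm
  have h1 : x⁻¹ * 1 * x = ((1 : H) : G) := by simp
  rw [h1, ← hyg]
  have hy1 : lam y = 1 := hy
  simp only [Subgroup.coe_subtype]
  rw [Cfsg.Agent.Lib.Char.extendByZero_coe, Cfsg.Agent.Lib.Char.extendByZero_coe]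
  simp [hy1]



/-- Kernels of linear characters contain the derived subgroup. -/
theorem map_derived_of_linear {X : Type*} [Group X] [Finite X] {ξ : X → ℂ}
    (hξ : Cfsg.IsIrrCharacter X ξ) (h1 : Cfsg.charDegree ξ = 1) :
    ∀ g ∈ derivedSeries X 1, ξ g = ξ 1 := by
  intro g hg
  have hc := Cfsg.Agent.Lib.Char.IsIrrCharacter.isCharacter hξ
  have h2 : ξ 1 = 1 := by
    rw [Cfsg.Agent.Lib.Char.map_one_eq_charDegree hc, h1]
    simp
  obtain ⟨l, rfl⟩ := Cfsg.Agent.Lib.Char.exists_hom_of_character_one hc h2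
  have h3 : derivedSeries X 1 ≤ l.ker := by
    rw [show derivedSeries X 1 = commutator X by rfl]
    exact Abelianization.commutator_subset_ker l
  have h4 : l g = 1 := h3 hg
  simp [h4]

/-- An element in all kernels is trivial. -/
theorem eq_one_of_forall_irr_ker {X : Type*} [Group X] [Finite X] {g : X}
    (h : ∀ χ : Cfsg.IrrCharacter X, (χ : X → ℂ) g = (χ : X → ℂ) 1) : g = 1 := by
  classical
  haveI := Fintype.ofFinite X
  have h1 : IsConj g 1 := (Cfsg.Agent.Lib.Char.isConj_iff_forall_irr g 1).mpr h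
  exact isConj_one_right.mp h1.symm

/-- A nilpotent group with degrees `1` and `m` has abelian derived subgroup. -/
theorem derivedSeries_two_of_nilpotent_two_deg {X : Type*} [Group X] [Finite X]
    [Group.IsNilpotent X] {m : ℕ}
    (hcd : ∀ χ : Cfsg.IrrCharacter X, Cfsg.charDegree (χ : X → ℂ) = 1 ∨
      Cfsg.charDegree (χ : X → ℂ) = m) :
    derivedSeries X 2 = ⊥ := by
  classical
  haveI := Fintype.ofFinite X
  have hM : ∀ χ : X → ℂ, Cfsg.IsIrrCharacter X χ →
      ∃ (H : Subgroup X) (lam : H →* ℂˣ), χ = Cfsg.indFun H (fun h => (lam h : ℂ)) :=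
    fun χ hχ => Cfsg.Agent.S0176.result χ hχ
  have hall := taketa_step hM 1 (max 1 m) (by
    intro ξ hξ hlt g hg
    refine map_derived_of_linear hξ ?_ g hg
    have hpos := Cfsg.Agent.Lib.Char.charDegree_pos_of_irr hξ
    rcases hcd ⟨ξ, hξ⟩ with h | h
    · exact h
    · exfalso
      change Cfsg.charDegree ξ = m at h
      rw [h] at hlt
      rw [h] at hpos
      omega)
  rw [eq_bot_iff]
  intro g hg
  rw [Subgroup.mem_bot]
  apply eq_one_of_forall_irr_ker
  intro χ
  refine hall χ χ.2 ?_ g hg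
  rcases hcd χ with h | h <;> rw [h] <;> simp

end Cfsg.Agent.Lib.Coprime
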