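import Mathlib

/-!
# A group in which every non-identity element fixes exactly one point has a global fixed point
-/

set_option autoImplicit false

namespace Cfsg.Agent.Lib.Coprime

open MulAction

/-- If every non-identity element of the finite group `K` has exactly one fixed point on the finite nonempty set
`Ω`, then `K` has a global fixed point. -/
theorem exists_fixed_of_unique_fix {K Ω : Type*} [Group K] [Finite K] [Finite Ω] [Nonempty Ω]
    [MulAction K Ω] (h : ∀ k : K, k ≠ 1 → ∃! ω : Ω, k • ω = ω) : ∃ ω : Ω, ∀ k : K, k • ω = ω := by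
  classical
  haveI := Fintype.ofFinite K
  haveI := Fintype.ofFinite Ω
  by_contra hno
  push Not at hno
  set n := Fintype.card K with hn
  have hnpos : 0 < n := Fintype.card_pos
  -- weights
  let f : Ω → ℕ := fun ω => (Finset.univ.filter (fun k : K => k ≠ 1 ∧ k • ω = ω)).card
  have hf : ∀ ω, f ω + 1 = Nat.card (stabilizer K ω) := by
    intro ω
    have h1 : Nat.card (stabilizer K ω) = (Finset.univ.filter (fun k : K => k • ω = ω)).card := by
      rw [Nat.card_eq_fintype_card]
      refine Fintype.card_of_subtype _ ?_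
      intro x
      simp [mem_stabilizer_iff]
    rw [h1]
    have h2 : Finset.univ.filter (fun k : K => k • ω = ω)
        = insert 1 (Finset.univ.filter (fun k : K => k ≠ 1 ∧ k • ω = ω)) := by
      ext k
      by_cases hk : k = 1
      · simp [hk]
      · simp [hk]
    rw [h2, Finset.card_insert_of_notMem (by simp)]
  -- total weight
  have htotal : ∑ ω, f ω + 1 = n := by
    have h1 : ∀ k : K, (∑ ω : Ω, if k ≠ 1 ∧ k • ω = ω then 1 else 0) = if k = 1 then 0 else 1 := by
      intro k
      by_cases hk : k = 1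
      · simp [hk]
      · obtain ⟨ω, hω, huniq⟩ := h k hk
        rw [if_neg hk, Finset.sum_eq_single ω]
        · simp [hk, hω]
        · intro b _ hb
          rw [if_neg]
          rintro ⟨-, h3⟩
          exact hb (huniq b h3)
        · simp
    have h2 : ∑ ω, f ω = ∑ k : K, if k = 1 then 0 else 1 := by
      simp only [f, Finset.card_filter]
      rw [Finset.sum_comm]
      exact Finset.sum_congr rfl (fun k _ => h1 k)
    rw [h2, hn, Fintype.card, ← Finset.add_sum_erase _ _ (Finset.mem_univ (1 : K)), Finset.sum_congr rfl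
      (g := fun _ => 1) (by
        intro x hx
        rw [if_neg (Finset.ne_of_mem_erase hx)])]
    simp only [Finset.sum_const, smul_eq_mul, mul_one, if_true, zero_add]
    rw [Finset.card_erase_of_mem (Finset.mem_univ _)]
    have : 0 < (Finset.univ : Finset K).card := Finset.card_pos.mpr ⟨1, Finset.mem_univ _⟩
    omega
  -- orbit data
  let O : Ω → Finset Ω := fun ω => Finset.univ.filter (fun ω' => ω' ∈ orbit K ω)
  have hOf : ∀ ω, ∀ ω' ∈ O ω, f ω' = f ω := by
    intro ω ω' hω'
    obtain ⟨g, rfl⟩ : ω' ∈ orbit K ω := by simpa [O] using hω'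
    have h1 := hf ((g : K) • ω)
    have h2 := hf ω
    have h3 : Nat.card (stabilizer K ((g : K) • ω)) = Nat.card (stabilizer K ω) := by
      rw [stabilizer_smul_eq_stabilizer_map_conj]
      exact Nat.card_congr ((MulAut.conj g).subgroupMap _).toEquiv.symm
    have h4 : f ((g : K) • ω) + 1 = f ω + 1 := by rw [h1, h2, h3]
    change f ((g : K) • ω) = f ω
    omega
  have hOcard : ∀ ω, (O ω).card * (f ω + 1) = n := by
    intro ω
    have h1 : (O ω).card = Nat.card (orbit K ω) := by
      rw [Nat.card_eq_fintype_card]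
      exact (Fintype.card_of_subtype _ (by intro x; simp [O])).symm
    rw [h1, hf ω, hn]
    have := card_orbit_mul_card_stabilizer_eq_card_group K ω
    simpa [Nat.card_eq_fintype_card] using this
  have hOsum : ∀ ω, ∑ ω' ∈ O ω, f ω' + (O ω).card = n := by
    intro ω
    rw [Finset.sum_congr rfl (hOf ω), Finset.sum_const, smul_eq_mul]
    have := hOcard ω
    nlinarith
  have hOtwo : ∀ ω, 2 ≤ (O ω).card := by
    intro ω
    by_contra hlt
    have h1 : ω ∈ O ω := by simp [O, mem_orbit_self]
    have h2 : (O ω).card = 1 := by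
      have : 0 < (O ω).card := Finset.card_pos.mpr ⟨ω, h1⟩
      omega
    rw [Finset.card_eq_one] at h2
    obtain ⟨a, ha⟩ := h2
    obtain ⟨k, hk⟩ := hno ω
    apply hk
    have h3 : k • ω ∈ O ω := by simp [O, mem_orbit]
    rw [ha, Finset.mem_singleton] at h1 h3
    rw [h3, h1]
  -- an element with a nontrivial stabilizer
  have hsmall : ∀ ω, 0 < f ω → 2 * (O ω).card ≤ n := by
    intro ω hω
    have := hOcard ω
    nlinarith
  have hn2 : 1 < n := by
    obtain ⟨ω⟩ := ‹Nonempty Ω›
    obtain ⟨k, hk⟩ := hno ω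
    have hk1 : k ≠ 1 := by
      rintro rfl
      simp at hk
    exact Fintype.one_lt_card_iff.mpr ⟨k, 1, hk1⟩
  have hpos : ∃ ω, 0 < f ω := by
    by_contra hc
    push Not at hc
    have : ∑ ω, f ω = 0 := Finset.sum_eq_zero (fun ω _ => by
      have := hc ω
      omega)
    omega
  obtain ⟨ω₀, hω₀⟩ := hpos
  have hle : ∀ S : Finset Ω, ∑ ω ∈ S, f ω ≤ ∑ ω, f ω := fun S =>
    Finset.sum_le_sum_of_subset (Finset.subset_univ S)
  -- a second orbit with nontrivial stabilizers
  have hsecond : ∃ ω₁, ω₁ ∉ O ω₀ ∧ 0 < f ω₁ := by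
    by_contra hc
    push Not at hc
    have h1 : ∑ ω, f ω = ∑ ω ∈ O ω₀, f ω := by
      symm
      apply Finset.sum_subset (Finset.subset_univ _)
      intro x _ hx
      have := hc x hx
      omega
    have h2 := hOsum ω₀
    have h3 := hOtwo ω₀
    omega
  obtain ⟨ω₁, hω₁, hω₁'⟩ := hsecond
  have hdisj : Disjoint (O ω₀) (O ω₁) := by
    rw [Finset.disjoint_left]
    intro x hx hx'
    apply hω₁
    have h1 : x ∈ orbit K ω₀ := by simpa [O] using hx
    have h2 : x ∈ orbit K ω₁ := by simpa [O] using hx'
    have h3 : orbit K x = orbit K ω₀ := orbit_eq_iff.mpr h1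
    have h4 : orbit K x = orbit K ω₁ := orbit_eq_iff.mpr h2
    have h5 : ω₁ ∈ orbit K ω₀ := by
      rw [← h3, h4]
      exact mem_orbit_self _
    simpa [O] using h5
  have h1 := hle (O ω₀ ∪ O ω₁)
  rw [Finset.sum_union hdisj] at h1
  have h2 := hOsum ω₀
  have h3 := hOsum ω₁
  have h4 := hsmall ω₀ hω₀
  have h5 := hsmall ω₁ hω₁'
  omega

end Cfsg.Agent.Lib.Coprime
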